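import Cfsg.Agent.H610.EB.StNorm
import Cfsg.Agent.H694.EB.TwoT
import Cfsg.Agent.H694.EB.TwoP
import Cfsg.Agent.H24.EB.EvenA
import Cfsg.Agent.H707.GalTrace
import Cfsg.Agent.H274.EB.U1
import Cfsg.Agent.KFacts.RgdFiltClass
import Cfsg.Agent.Mrg.Omega.ML.Ex.Typ.List

/-!
# Type `A₂` in characteristic two

`evenJ_A2`: `EvenJ` for groups with a split (B,N)-pair of type `A₂` in characteristic two (`PSL₃(2^a)`), by the
unipotent character of degree `q² + q`, whose norm on a Sylow 2-subgroup is odd.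
-/

set_option autoImplicit false
set_option linter.unusedSectionVars false
set_option linter.style.haveILetI false

namespace Cfsg.Agent.H610.EB

open Cfsg Cfsg.Agent.H694 Cfsg.Agent.H694.EB Cfsg.Agent.H684.EB
open scoped ComplexConjugate
open Cfsg.Agent.Characters.Core
open Cfsg.Agent.Blocks.Basic
open Cfsg.Agent.LieExceptional.BNPairCore Cfsg.Agent.Tits.Core
  Cfsg.Agent.Tits.OfBN Cfsg.Agent.Schreier.BNSch Cfsg.Agent.FixBN
  Cfsg.Agent.OddHalf.Table.AutBldg
open Cfsg.Agent.Omega.ML.Ex.Typ (HasSplitT HasRGDT)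
open Cfsg.Agent.LieRecognition.BNCox (cA)
open Cfsg.Agent.Nodes

universe u

/-! ### Double cosets -/

theorem count_A2_point {W : Type*} [Group W] [Finite W] (cs : CoxeterSystem (cA 2) W) :
    Nat.card (DoubleCoset.Quotient (WJ cs ∅ : Set W) (WJ cs {0} : Set W)) = 3 ∧
    Nat.card (DoubleCoset.Quotient (WJ cs {0} : Set W) (WJ cs {0} : Set W)) = 2 ∧
      Nat.card (DoubleCoset.Quotient (WJ cs {1} : Set W) (WJ cs {0} : Set W)) = 2 := by
  obtain ⟨-, h2⟩ := count cs (RootsA.isCartan 2) (c := ![0, 1]) (by decide) (![![0, 1], ![1, -1], ![-1, 0]] : Fin 3 → Fin 2 → ℤ)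
    (by decide) 0 (by decide) (![![0, 2, 1], ![1, 0, 2]] : Fin 2 → Fin 3 → Fin 3) (by decide) (fun y => (y : ℕ)) (by decide)
  have h3 : {i | (![0, 1] : Fin 2 → ℤ) i = 0} = ({0} : Set (Fin 2)) := by
    ext i
    fin_cases i <;> simp
  rw [h3] at h2
  rw [h2, h2, h2]
  have h4 : ∀ (l : Fin 2) (y : Fin 3), (∀ i ∈ ({l} : Set (Fin 2)), 0 ≤ (![![0, 1], ![1, -1], ![-1, 0]] : Fin 3 → Fin 2 → ℤ) y i) ↔
      0 ≤ (![![0, 1], ![1, -1], ![-1, 0]] : Fin 3 → Fin 2 → ℤ) y l := by
    intro l y
    simp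
  have h5 : ∀ (y : Fin 3), (∀ i ∈ (∅ : Set (Fin 2)), 0 ≤ (![![0, 1], ![1, -1], ![-1, 0]] : Fin 3 → Fin 2 → ℤ) y i) ↔ True := by
    intro y
    simp
  rw [Nat.card_congr (Equiv.subtypeEquivRight (h4 0)), Nat.card_congr (Equiv.subtypeEquivRight (h4 1)),
    Nat.card_congr (Equiv.subtypeEquivRight h5), Nat.card_eq_fintype_card, Nat.card_eq_fintype_card,
    Nat.card_eq_fintype_card]
  refine ⟨?_, ?_, ?_⟩ <;> decide

theorem count_A2_flag {W : Type*} [Group W] [Finite W] (cs : CoxeterSystem (cA 2) W) :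
    Nat.card (DoubleCoset.Quotient (WJ cs ∅ : Set W) (WJ cs ∅ : Set W)) = 6 := by
  obtain ⟨-, h2⟩ := count cs (RootsA.isCartan 2) (c := ![1, 1]) (by decide)
    (![![1, 1], ![-1, 2], ![2, -1], ![1, -2], ![-2, 1], ![-1, -1]] : Fin 6 → Fin 2 → ℤ)
    (by decide) 0 (by decide) (![![1, 0, 4, 5, 2, 3], ![2, 3, 0, 1, 5, 4]] : Fin 2 → Fin 6 → Fin 6) (by decide)
    (fun y => (y : ℕ)) (by decide)
  have h3 : {i | (![1, 1] : Fin 2 → ℤ) i = 0} = (∅ : Set (Fin 2)) := by
    ext i
    fin_cases i <;> simp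
  rw [h3] at h2
  rw [h2]
  have h5 : ∀ (y : Fin 6), (∀ i ∈ (∅ : Set (Fin 2)), 0 ≤ (![![1, 1], ![-1, 2], ![2, -1], ![1, -2], ![-2, 1], ![-1, -1]] :
      Fin 6 → Fin 2 → ℤ) y i) ↔ True := by
    intro y
    simp
  rw [Nat.card_congr (Equiv.subtypeEquivRight h5), Nat.card_eq_fintype_card]
  decide

theorem count_A2_line {W : Type*} [Group W] [Finite W] (cs : CoxeterSystem (cA 2) W) :
    Nat.card (DoubleCoset.Quotient (WJ cs {1} : Set W) (WJ cs {1} : Set W)) = 2 := by
  obtain ⟨-, h2⟩ := count cs (RootsA.isCartan 2) (c := ![1, 0]) (by decide) (![![1, 0], ![-1, 1], ![0, -1]] : Fin 3 → Fin 2 → ℤ)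
    (by decide) 0 (by decide) (![![1, 0, 2], ![0, 2, 1]] : Fin 2 → Fin 3 → Fin 3) (by decide) (fun y => (y : ℕ)) (by decide)
  have h3 : {i | (![1, 0] : Fin 2 → ℤ) i = 0} = ({1} : Set (Fin 2)) := by
    ext i
    fin_cases i <;> simp
  rw [h3] at h2
  rw [h2]
  have h4 : ∀ (l : Fin 2) (y : Fin 3), (∀ i ∈ ({l} : Set (Fin 2)), 0 ≤ (![![1, 0], ![-1, 1], ![0, -1]] : Fin 3 → Fin 2 → ℤ) y i) ↔
      0 ≤ (![![1, 0], ![-1, 1], ![0, -1]] : Fin 3 → Fin 2 → ℤ) y l := by
    intro l y
    simp
  rw [Nat.card_congr (Equiv.subtypeEquivRight (h4 1)), Nat.card_eq_fintype_card]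
  decide

/-! ### The permutation characters -/

theorem psi_eq {K : Type u} [Group K] [Fintype K] {H : Subgroup K}
    (hH : Subgroup.normalizer (H : Set K) = H) : psi H = permS (cls H) := by
  funext s
  rw [permS_cls hH]
  exact congrFun (Cfsg.Agent.H453.OddM.fixN_quot H) s

theorem permS_im {K : Type u} [Group K] (𝒳 : Set (Subgroup K)) (s : K) : (permS 𝒳 s).im = 0 := by
  unfold permS
  simp

theorem permS_sq {K : Type u} [Group K] (𝒳 : Set (Subgroup K)) {s : K} (hs : Odd (orderOf s)) :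
    permS 𝒳 (s * s) = permS 𝒳 s := by
  unfold permS
  congr 1
  refine Nat.card_congr (Equiv.subtypeEquivRight fun H => ?_)
  refine and_congr_right fun _ => ⟨fun h => ?_, fun h => ?_⟩
  · obtain ⟨j, hj⟩ := hs
    have h1 : ∀ n : ℕ, H.map (MulAut.conj ((s * s) ^ n)).toMonoidHom = H := by
      intro n
      induction n with
      | zero => rw [pow_zero, Cfsg.Agent.H694.map_conj_one]
      | succ n ih =>
        rw [pow_succ, ← map_conj_conj, h, ih]
    have h2 := h1 (j + 1)
    have h3 : (s * s) ^ (j + 1) = s := by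
      have h4 : s ^ (2 * j + 1) = 1 := by rw [← hj]; exact pow_orderOf_eq_one s
      calc (s * s) ^ (j + 1) = s ^ (2 * j + 1) * s := by
            rw [← pow_two, ← pow_mul, ← pow_succ]
            congr 1
        _ = s := by rw [h4, one_mul]
    rwa [h3] at h2
  · rw [← map_conj_conj, h, h]

/-- **Type `A₂` in characteristic two.** -/
theorem evenJ_A2 {K : Type u} [Group K] [Finite K] (hK : HasSplitT 2 (cA 2) K) (hdz : DZ K) : EvenJ K := by
  classical
  obtain ⟨P, U, e, S, hN, cs, hcs⟩ := hK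
  haveI : Fact (Nat.Prime 2) := ⟨Nat.prime_two⟩
  haveI : Fintype K := Fintype.ofFinite K
  haveI : Fintype U := Fintype.ofFinite U
  have hconj : ∀ (J : Set (Fin 2)) (g : K), ∀ H ∈ cls (PJ P e J), H.map (MulAut.conj g).toMonoidHom ∈ cls (PJ P e J) :=
    fun J g H hH => conj_mem_cls hH g
  have hin : ∀ J L : Set (Fin 2), classInner (permS (cls (PJ P e J))) (permS (cls (PJ P e L))) =
      (Nat.card (DoubleCoset.Quotient (WJ cs J : Set (WP P)) (WJ cs L : Set (WP P))) : ℂ) := by
    intro J L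
    rw [classInner_permS _ _ (hconj J) (hconj L), card_pairRel (normalizer_PJ e J) (normalizer_PJ e L),
      card_double e cs hcs]
  obtain ⟨c03, c00, c10⟩ := count_A2_point cs
  have c11 := count_A2_line cs
  have c66 := count_A2_flag cs
  have h00 : classInner (permS (cls (PJ P e {0}))) (permS (cls (PJ P e {0}))) = 2 := by
    rw [hin, c00]
    norm_num
  have h10 : classInner (permS (cls (PJ P e {1}))) (permS (cls (PJ P e {0}))) = 2 := by
    rw [hin, c10]
    norm_num
  have h11 : classInner (permS (cls (PJ P e {1}))) (permS (cls (PJ P e {1}))) = 2 := by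
    rw [hin, c11]
    norm_num
  have h01 : classInner (permS (cls (PJ P e {0}))) (permS (cls (PJ P e {1}))) = 2 := by
    rw [← classInner_conj_symm, h10]
    exact map_ofNat _ 2
  have hπ : permS (cls (PJ P e {1})) = permS (cls (PJ P e {0})) := by
    refine sub_eq_zero.1 (classInner_self_eq_zero ?_)
    rw [classInner_sub_left, classInner_sub_right, classInner_sub_right, h11, h10, h01, h00]
    ring
  have hone : ∀ J : Set (Fin 2), classInner (permS (cls (PJ P e J))) (fun _ => (1 : ℂ)) = 1 := by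
    intro J
    haveI : Fintype (PJ P e J) := Fintype.ofFinite _
    rw [← psi_eq (normalizer_PJ e J), psi_inner _ (isIrr_isClassFunction isIrrCharacter_one)]
    exact classInner_irr_self (isIrrCharacter_one (G := PJ P e J))
  have hone' : ∀ J : Set (Fin 2), classInner (fun _ => (1 : ℂ)) (permS (cls (PJ P e J))) = 1 := by
    intro J
    rw [← classInner_conj_symm, hone]
    exact map_one _
  have h1s : classInner (fun _ : K => (1 : ℂ)) (fun _ => (1 : ℂ)) = 1 :=
    classInner_irr_self (isIrrCharacter_one (G := K))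
  set π : K → ℂ := permS (cls (PJ P e {0})) with hπ_def
  set φ : K → ℂ := π - (fun _ => (1 : ℂ)) with hφ_def
  have hcπ : IsCharacter K π := Cfsg.Agent.H24.EB.isCharacter_permS _ (hconj {0})
  have hnorm : classInner φ φ = 1 := by
    rw [hφ_def, classInner_sub_left, classInner_sub_right, classInner_sub_right, h00, hone, hone', h1s]
    norm_num
  have hX1 : 1 ≤ (PJ P e {0}).index := Nat.one_le_iff_ne_zero.2 Subgroup.index_ne_zero_of_finite
  have hXo : Odd (PJ P e {0}).index := index_odd e cs hcs S {0}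
  have hφ1 : φ 1 = (((PJ P e {0}).index - 1 : ℕ) : ℂ) := by
    show permS (cls (PJ P e {0})) 1 - 1 = _
    rw [permS_one, card_cls (normalizer_PJ e _), Nat.cast_sub hX1]
    simp
  have hφ : IsIrrCharacter K φ := by
    rcases isIrr_of_generalized ⟨π, _, hcπ, isIrr_isCharacter isIrrCharacter_one, rfl⟩ hnorm with h | h
    · exact h
    · exfalso
      obtain ⟨n, hn0, hn⟩ := isIrr_apply_one h
      have h2 : -(((PJ P e {0}).index - 1 : ℕ) : ℂ) = (n : ℂ) := by
        rw [← hn, ← hφ1]
        rfl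
      have h3 : ((((PJ P e {0}).index - 1 : ℕ) + n : ℕ) : ℂ) = 0 := by
        push_cast
        rw [← h2]
        ring
      have h4 : ((PJ P e {0}).index - 1 : ℕ) + n = 0 := by exact_mod_cast h3
      omega
  have heven : Even (charDegree φ) := by
    have h2 : charDegree φ = (PJ P e {0}).index - 1 := by
      unfold charDegree
      rw [hφ1, Complex.natCast_re, Nat.floor_natCast]
    rw [h2]
    exact Nat.Odd.sub_odd hXo odd_one
  have hfix : ∀ k : ℕ, IsK K k → ∀ s : K, φ (s ^ k) = φ s := by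
    intro k hk s
    show permS (cls (PJ P e {0})) (s ^ k) - 1 = permS (cls (PJ P e {0})) s - 1
    rw [Cfsg.Agent.H24.EB.permS_pow _ (hconj {0}) hk]
  have hinv : ∀ a : K ≃* K, (fun s => φ (a s)) = φ := by
    intro a
    obtain ⟨σ, hσ, h⟩ := exists_type_perm e cs hcs S a
    obtain ⟨g, hg⟩ := h {0}
    have h2 : σ '' {0} = {σ 0} := Set.image_singleton
    rw [h2] at hg
    funext s
    have h3 := Cfsg.Agent.H24.EB.permS_cls_map a hg s
    show permS (cls (PJ P e {0})) (a s) - 1 = permS (cls (PJ P e {0})) s - 1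
    congr 1
    have h4 : ∀ x : Fin 2, x = 0 ∨ x = 1 := by decide
    rcases h4 (σ 0) with h5 | h5
    · rw [h5] at h3
      exact h3
    · rw [h5, hπ] at h3
      exact h3
  have hπφ : classInner π φ = 1 := by
    rw [hφ_def, classInner_sub_right, h00, hone]
    norm_num
  have hmem : ∀ M : Ideal AlgInt, IsPModular 2 M →
      (⟨φ, hφ⟩ : IrrCharacter K) ∈ principalBlock M K := by
    intro M hM
    refine inB0_two e cs hcs S hdz (J := {0}) ⟨0, rfl⟩ M hM ⟨φ, hφ⟩ ?_
    show mu π φ ≠ 0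
    rw [mu_eq (n := 1) (by rw [hπφ]; norm_num)]
    decide
  -- the Steinberg character
  obtain ⟨St, hSt, hStq, hStQ⟩ := Cfsg.Agent.H707.GalTrace.exists_rat_of_hasSplit (p := 2)
    (⟨P, U, ⟨e 0, (e 0).2⟩, S⟩ : HasSplit 2 K)
  have hUo := index_U_odd S
  set Q : Sylow 2 K := S.isP.toSylow (by
    rw [← even_iff_two_dvd, Nat.not_even_iff_odd]
    exact hUo) with hQ_def
  have hQU : (Q : Subgroup K) = U := rfl
  obtain ⟨hSt1, hSt0⟩ := hStQ Q
  have hcU : (Nat.card Q : ℂ) = (Nat.card U : ℂ) := rfl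
  have hStr : ∀ g, (St g).im = 0 := by
    intro g
    obtain ⟨r, hr⟩ := hStq g
    rw [hr]
    simp
  have hStv : ∀ g, Even (orderOf g) → St g = 0 := by
    intro g hg
    obtain ⟨n, ρ, hρ, hρχ⟩ := hSt
    have := hρ
    rw [← hρχ]
    refine Cfsg.Agent.S0165.result ρ 2 ((Nat.card K).factorization 2) Nat.prime_two (Nat.ordProj_dvd _ _)
      (Nat.pow_succ_factorization_not_dvd Nat.card_pos.ne' Nat.prime_two) ?_ g (even_iff_two_dvd.1 hg)
    have h2 : St 1 = (n : ℂ) := by rw [← hρχ]; simp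
    have h3 : n = 2 ^ (Nat.card K).factorization 2 := by
      rw [← Q.card_eq_multiplicity]
      have h4 : (n : ℂ) = (Nat.card Q : ℂ) := by rw [← h2, hSt1]
      exact_mod_cast h4
    rw [Module.finrank_fin_fun, h3]
  have hUrel : Odd (U.relIndex P.B) := by
    have h2 : U.relIndex P.B * P.B.index = U.index := Subgroup.relIndex_mul_index S.le
    rw [← h2] at hUo
    exact Nat.Odd.of_mul_left hUo
  obtain ⟨a, m, ha, hm, ham⟩ := psi_mod_two U P.B S.le S.norm hUrel (f := St)
    (Cfsg.Agent.Characters.Brauer.isGeneralizedCharacter_of_isCharacter (isIrr_isCharacter hSt)) hStr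
  have ha1 : a = 1 := by
    have h2 : classInner (fun v : U => St v) (fun _ => (1 : ℂ)) = 1 := by
      rw [Cfsg.Agent.Characters.Core.classInner_def, Finset.sum_eq_single (1 : U)]
      · show (Nat.card U : ℂ)⁻¹ * (St 1 * conj (1 : ℂ)) = 1
        rw [hSt1, hcU, map_one, mul_one, inv_mul_cancel₀ card_ne_zero_complex]
      · intro v _ hv
        rw [hSt0 v v.2 (fun h => hv (Subtype.ext h)), zero_mul]
      · intro h
        exact absurd (Finset.mem_univ _) h
    rw [h2] at ha
    exact_mod_cast ha.symm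
  have hmo : Odd m := by
    have h2 : m = a - (a - m) := by ring
    rw [h2, ha1]
    rw [ha1] at ham
    exact odd_one.sub_even ham
  have hB : P.B = PJ P e ∅ := by
    unfold PJ
    rw [Set.image_empty, parabolic_empty]
  have hβ : psi P.B = permS (cls (PJ P e ∅)) := by
    rw [hB]
    exact psi_eq (normalizer_PJ e ∅)
  rw [hβ] at hm
  set β : K → ℂ := permS (cls (PJ P e ∅)) with hβ_def
  have hβSt : classInner β St = m := by
    rw [← classInner_conj_symm, hm, map_intCast]
  have hββ : classInner β β = 6 := by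
    rw [hβ_def, hin, c66]
    norm_num
  have hβφ : classInner β φ = 2 := by
    rw [hφ_def, classInner_sub_right, hβ_def, hin, c03, hone]
    norm_num
  have hφβ : classInner φ β = 2 := by
    rw [← classInner_conj_symm, hβφ]
    exact map_ofNat _ 2
  have hne : φ ≠ St := by
    intro h
    rw [← h, hφβ] at hm
    have h2 : m = 2 := by exact_mod_cast hm.symm
    rw [h2] at hmo
    exact absurd hmo (by decide)
  have hne1 : (fun _ : K => (1 : ℂ)) ≠ St := by
    intro h
    obtain ⟨V, hV⟩ := S.node (e 0) (e 0).2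
    obtain ⟨u, hu, huV⟩ := hV.ne
    have h2 := hSt0 u hu (fun h3 => huV (by rw [h3]; exact V.one_mem))
    rw [← h] at h2
    exact one_ne_zero h2
  have hφSt : classInner φ St = 0 := classInner_irr_ne hφ hSt hne
  have hStφ : classInner St φ = 0 := classInner_irr_ne hSt hφ hne.symm
  have h1St : classInner (fun _ : K => (1 : ℂ)) St = 0 := classInner_irr_ne isIrrCharacter_one hSt hne1
  have hSt1' : classInner St (fun _ : K => (1 : ℂ)) = 0 := classInner_irr_ne hSt isIrrCharacter_one hne1.symm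
  have hφ1' : classInner φ (fun _ : K => (1 : ℂ)) = 0 := by
    rw [hφ_def, classInner_sub_left, hone, h1s]
    norm_num
  have h1φ : classInner (fun _ : K => (1 : ℂ)) φ = 0 := by
    rw [← classInner_conj_symm, hφ1', map_zero]
  have hStSt : classInner St St = 1 := classInner_irr_self hSt
  have hdec : psi P.B = (fun _ => (1 : ℂ)) + (2 : ℂ) • φ + (m : ℂ) • St := by
    rw [hβ]
    have hn2 : classInner (β - ((fun _ => (1 : ℂ)) + (2 : ℂ) • φ + (m : ℂ) • St))
        (β - ((fun _ => (1 : ℂ)) + (2 : ℂ) • φ + (m : ℂ) • St)) = ((1 - m ^ 2 : ℤ) : ℂ) := by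
      simp only [classInner_sub_left, classInner_sub_right, classInner_add_left, classInner_add_right,
        classInner_smul_left, classInner_smul_right, hββ, hβφ, hβSt, hφβ, hm, hφSt, hStφ, h1St, hSt1', hφ1',
        h1φ, hStSt, hnorm, h1s, map_ofNat, map_intCast]
      rw [hβ_def, hone, hone']
      push_cast
      ring
    have hpos : 0 ≤ ((1 - m ^ 2 : ℤ) : ℝ) := by
      have h2 := classInner_self_eq_ofReal (β - ((fun _ => (1 : ℂ)) + (2 : ℂ) • φ + (m : ℂ) • St))
      rw [hn2] at h2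
      have h3 := congrArg Complex.re h2
      rw [Complex.intCast_re, Complex.ofReal_re] at h3
      rw [h3]
      exact mul_nonneg (by positivity) (Finset.sum_nonneg fun _ _ => Complex.normSq_nonneg _)
    have hpos' : 0 ≤ 1 - m ^ 2 := by exact_mod_cast hpos
    have hm0 : m ≠ 0 := by
      rintro rfl
      exact absurd hmo (by decide)
    have hm2 : 1 ≤ m ^ 2 := by
      have := sq_nonneg m
      have h3 : m ^ 2 ≠ 0 := pow_ne_zero 2 hm0
      omega
    have hz : 1 - m ^ 2 = 0 := by omega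
    rw [hz, Int.cast_zero] at hn2
    exact sub_eq_zero.1 (classInner_self_eq_zero hn2)
  have hsq : ∀ g, Odd (orderOf g) → St (g * g) = St g := by
    intro g hg
    have hm0 : (m : ℂ) ≠ 0 := by
      intro h
      have h2 : m = 0 := by exact_mod_cast h
      rw [h2] at hmo
      exact absurd hmo (by decide)
    have h2 := congrFun hdec g
    have h3 := congrFun hdec (g * g)
    rw [hβ] at h2 h3
    have h4 : β (g * g) = β g := permS_sq _ hg
    have h5 : π (g * g) = π g := permS_sq _ hg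
    have h6 : φ (g * g) = φ g := by
      show π (g * g) - 1 = π g - 1
      rw [h5]
    rw [h4, h2] at h3
    simp only [Pi.add_apply, Pi.smul_apply, smul_eq_mul, h6] at h3
    have h7 : (m : ℂ) * St g = m * St (g * g) := by linear_combination h3
    exact (mul_left_cancel₀ hm0 h7).symm
  obtain ⟨c, hc, hco⟩ := odd_norm U P.B S.le S.norm hUrel hφ hSt (fun g => by
    show (permS (cls (PJ P e {0})) g - 1).im = 0
    rw [Complex.sub_im, permS_im]
    simp) hStv hsq hne hdec
  exact (RPhi.of_norm hφ heven hfix hinv hmem U S.isP hUo hc hco).evenJ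

/-- **`PSL₃(2^a)`.** -/
theorem evenJ_psl3_two {S : Type u} [Group S] [Finite S] [IsSimpleGroup S] {F : Type} [Field F] [Fintype F]
    [CharP F 2] (e : S ≃* Matrix.ProjectiveSpecialLinearGroup (Fin 3) F) : EvenJ S := by
  have : Fact (Nat.Prime 2) := ⟨Nat.prime_two⟩
  have hd : DZ S := H274.EB.dz_of_hasFilt (KFacts.RgdFiltClass.hasFilt_of_PSL
    ⟨F, inferInstance, inferInstance, inferInstance, 3, by norm_num, by intro h; omega, ⟨e⟩⟩)
  exact evenJ_A2 (((Cfsg.Agent.Omega.ML.Ex.Typ.typ_PSL (F := F) (p := 2) 2).of_equiv e.symm).hasSplitT Nat.prime_two (by norm_num)) hd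

end Cfsg.Agent.H610.EB
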