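import Cfsg.Agent.H610.EB.Idem
import Cfsg.Agent.H694.BnPar
import Cfsg.Agent.H740.Eight.HeckeDeg

/-!
# The action of an overgroup on the chambers of a (B,N)-pair

`N` is a normal subgroup of `G` with a split (B,N)-pair `P`. The group `G` acts on the chambers
`N ⧸ P.B` (the conjugates of `P.B`); the type `Ch N P` is `N ⧸ P.B` with this action.

* `chAct`: the action; `coe_smul`: it extends the action of `N` by left translations.
* `exists_twist`: `δ (g x) (g y) = fW β (δ x y)` for an automorphism `β` preserving `B`.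
* `inv_T_of`: the Hecke matrices are `G`-invariant if `G` preserves the types.
-/

set_option autoImplicit false
set_option linter.unusedSectionVars false
set_option linter.style.haveILetI false

namespace Cfsg.Agent.H610.EB

open Cfsg Cfsg.Agent.H694
open Cfsg.Agent.LieExceptional.BNPairCore Cfsg.Agent.Tits.Core Cfsg.Agent.Tits.Core.Bldg
  Cfsg.Agent.Tits.OfBN Cfsg.Agent.Schreier.BNSch Cfsg.Agent.Tits.OppRes Cfsg.Agent.FixBN
  Cfsg.Agent.FixBN.TwOfBN Cfsg.Agent.OddHalf.Table.AutBldg
open Cfsg.Agent.LieRecognition.FeitHigmanGroup (R T T_apply R_mk_iff q T_sq)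
open Cfsg.Agent.H740.Eight.Hecke (Inv)

universe u v

section act

variable {G : Type u} [Group G] (N : Subgroup G)

/-- The chambers. -/
def Ch (P : Cfsg.BNPair N) : Type u := N ⧸ P.B

variable {N} [hNn : N.Normal] {P : Cfsg.BNPair N}

noncomputable instance [Finite N] : Fintype (Ch N P) :=
  @Fintype.ofFinite (N ⧸ P.B) inferInstance

noncomputable instance : DecidableEq (Ch N P) := Classical.decEq _

/-- The Borel subgroup is its own normalizer. -/
theorem normalizer_B : Subgroup.normalizer (P.B : Set N) = P.B := by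
  have h1 := Cfsg.Agent.S0312.result P (Set.empty_subset P.S)
  have h2 : P.parabolic ∅ = P.B := by
    unfold BNPair.parabolic
    rw [Subgroup.closure_empty, sup_bot_eq]
  rwa [h2] at h1

/-- `G` permutes the conjugates of `B`. -/
abbrev Stab (N : Subgroup G) [N.Normal] (P : Cfsg.BNPair N) : Prop :=
  ∀ g : G, ∀ H ∈ cls P.B, cmap N g H ∈ cls P.B

theorem stab_of_split [Finite N] {p : ℕ} [Fact p.Prime] {U : Subgroup N} (S : Split P p U) :
    Stab N P := by
  rintro g _ ⟨a, rfl⟩
  obtain ⟨t, ht⟩ := exists_conj_keep S (MulAut.conjNormal g : MulAut N)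
  refine ⟨(MulAut.conjNormal g : MulAut N) a * t⁻¹, ?_⟩
  unfold cmap
  rw [← map_conj_conj]
  have h1 : P.B.map (MulAut.conj t⁻¹).toMonoidHom =
      P.B.map (MulAut.conjNormal g : MulAut N).toMonoidHom := by
    ext x
    constructor
    · rintro ⟨b, hb, rfl⟩
      refine ⟨(MulAut.conjNormal g : MulAut N)⁻¹ (t⁻¹ * b * t), ?_, ?_⟩
      · have h2 := (ht ((MulAut.conjNormal g : MulAut N)⁻¹ (t⁻¹ * b * t))).1 (by
          rw [MulAut.mul_apply, MulAut.apply_inv_self, MulAut.conj_apply]
          have h3 : t * (t⁻¹ * b * t) * t⁻¹ = b := by group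
          rw [h3]
          exact hb)
        exact h2
      · show (MulAut.conjNormal g : MulAut N) ((MulAut.conjNormal g : MulAut N)⁻¹ (t⁻¹ * b * t)) =
          t⁻¹ * b * (t⁻¹)⁻¹
        rw [MulAut.apply_inv_self, inv_inv]
    · rintro ⟨b, hb, rfl⟩
      refine ⟨t * (MulAut.conjNormal g : MulAut N) b * t⁻¹, ?_, ?_⟩
      · have h2 := (ht b).2 hb
        rw [MulAut.mul_apply, MulAut.conj_apply] at h2
        exact h2
      · show t⁻¹ * (t * (MulAut.conjNormal g : MulAut N) b * t⁻¹) * (t⁻¹)⁻¹ =
          (MulAut.conjNormal g : MulAut N) b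
        group
  rw [h1, Subgroup.map_map, Subgroup.map_map]
  congr 1
  ext x
  show (((MulAut.conjNormal g : MulAut N) a * (MulAut.conjNormal g : MulAut N) x *
    ((MulAut.conjNormal g : MulAut N) a)⁻¹ : N) : G) = ((MulAut.conjNormal g : MulAut N) (a * x * a⁻¹) : N)
  rw [map_mul, map_mul, map_inv]

/-- The chambers are the conjugates of `B`. -/
noncomputable def chE : Ch N P ≃ cls P.B := clsEquiv (normalizer_B (P := P))

/-- The action of `G` on the chambers. -/
@[reducible] noncomputable def chAct (hS : Stab N P) : MulAction G (Ch N P) :=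
  letI := actSet N (cls P.B) hS
  { smul := fun g x => chE.symm (g • chE x)
    one_smul := fun x => by
      show chE.symm ((1 : G) • chE x) = x
      rw [one_smul, Equiv.symm_apply_apply]
    mul_smul := fun g h x => by
      show chE.symm ((g * h) • chE x) = chE.symm (g • chE (chE.symm (h • chE x)))
      rw [Equiv.apply_symm_apply, mul_smul] }

/-- The chamber of an element. -/
def mk (a : N) : Ch N P := (QuotientGroup.mk a : N ⧸ P.B)

theorem chE_mk (a : N) : ((chE (mk a : Ch N P) : cls P.B) : Subgroup N) =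
    P.B.map (MulAut.conj a).toMonoidHom := rfl

/-- The formula for the action. -/
theorem smul_mk (hS : Stab N P) (g : G) {t : N} (ht : Keep P (MulAut.conj t * MulAut.conjNormal g))
    (a : N) : (letI := chAct hS; g • (mk a : Ch N P)) =
      mk ((MulAut.conjNormal g : MulAut N) a * t⁻¹) := by
  letI := actSet N (cls P.B) hS
  show chE.symm (g • chE (mk a : Ch N P)) = _
  rw [Equiv.symm_apply_eq]
  apply Subtype.ext
  show cmap N g (P.B.map (MulAut.conj a).toMonoidHom) =
    P.B.map (MulAut.conj ((MulAut.conjNormal g : MulAut N) a * t⁻¹)).toMonoidHom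
  unfold cmap
  rw [← map_conj_conj]
  have h1 : P.B.map (MulAut.conj t⁻¹).toMonoidHom =
      P.B.map (MulAut.conjNormal g : MulAut N).toMonoidHom := by
    ext x
    constructor
    · rintro ⟨b, hb, rfl⟩
      refine ⟨(MulAut.conjNormal g : MulAut N)⁻¹ (t⁻¹ * b * t), ?_, ?_⟩
      · have h2 := (ht ((MulAut.conjNormal g : MulAut N)⁻¹ (t⁻¹ * b * t))).1 (by
          rw [MulAut.mul_apply, MulAut.apply_inv_self, MulAut.conj_apply]
          have h3 : t * (t⁻¹ * b * t) * t⁻¹ = b := by group
          rw [h3]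
          exact hb)
        exact h2
      · show (MulAut.conjNormal g : MulAut N) ((MulAut.conjNormal g : MulAut N)⁻¹ (t⁻¹ * b * t)) =
          t⁻¹ * b * (t⁻¹)⁻¹
        rw [MulAut.apply_inv_self, inv_inv]
    · rintro ⟨b, hb, rfl⟩
      refine ⟨t * (MulAut.conjNormal g : MulAut N) b * t⁻¹, ?_, ?_⟩
      · have h2 := (ht b).2 hb
        rw [MulAut.mul_apply, MulAut.conj_apply] at h2
        exact h2
      · show t⁻¹ * (t * (MulAut.conjNormal g : MulAut N) b * t⁻¹) * (t⁻¹)⁻¹ =
          (MulAut.conjNormal g : MulAut N) b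
        group
  rw [h1, Subgroup.map_map, Subgroup.map_map]
  congr 1
  ext x
  show ((MulAut.conjNormal g : MulAut N) (a * x * a⁻¹) : N) =
    (((MulAut.conjNormal g : MulAut N) a * (MulAut.conjNormal g : MulAut N) x *
    ((MulAut.conjNormal g : MulAut N) a)⁻¹ : N) : G)
  rw [map_mul, map_mul, map_inv]

/-- The action extends the action by left translations. -/
theorem coe_smul (hS : Stab N P) (n a : N) :
    (letI := chAct hS; (n : G) • (mk a : Ch N P)) = mk (n * a) := by
  have h1 : Keep P (MulAut.conj n⁻¹ * MulAut.conjNormal (n : G)) := by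
    have h2 : MulAut.conj n⁻¹ * (MulAut.conjNormal (n : G) : MulAut N) = 1 := by
      rw [conjNormal_coe, ← map_mul, inv_mul_cancel, map_one]
    rw [h2]
    exact Keep.one
  rw [smul_mk hS (n : G) h1, conjNormal_coe, MulAut.conj_apply, inv_inv]
  congr 1
  group

end act

section types

variable {G : Type u} [Group G] {N : Subgroup G} [hNn : N.Normal] {P : Cfsg.BNPair N} [Finite N]
variable [hN : ((P.B ⊓ P.N).subgroupOf P.N).Normal]
variable {I : Type*} {M : CoxeterMatrix I} (e : I ≃ P.S) (cs : CoxeterSystem M (WP P))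
  (hcs : ∀ i, cs.simple i = QuotientGroup.mk (⟨(e i : N), P.subset (e i).2⟩ : P.N))

/-- The distance of the chambers. -/
noncomputable def dl (x y : Ch N P) : WP P := dist P x y

theorem dl_mk (a b : N) : dl (mk a : Ch N P) (mk b) = wt P (a⁻¹ * b) := dist_mk P a b

/-- The Hecke matrices in terms of the distance. -/
theorem T_eq (w : P.N) (x y : Ch N P) :
    (T P (w : N) : Matrix (N ⧸ P.B) (N ⧸ P.B) ℝ) x y =
      (open Classical in if dl x y = QuotientGroup.mk w then 1 else 0) := by
  classical
  obtain ⟨a, rfl⟩ := QuotientGroup.mk_surjective (s := P.B) x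
  obtain ⟨b, rfl⟩ := QuotientGroup.mk_surjective (s := P.B) y
  rw [T_apply]
  have h1 : R P (w : N) (QuotientGroup.mk a : N ⧸ P.B) (QuotientGroup.mk b) ↔
      dl (mk a : Ch N P) (mk b) = QuotientGroup.mk w := by
    rw [R_mk_iff, dl_mk, wt_eq_iff]
  show (if R P (w : N) (QuotientGroup.mk a : N ⧸ P.B) (QuotientGroup.mk b) then (1 : ℝ) else 0) =
    if dl (mk a : Ch N P) (mk b) = QuotientGroup.mk w then 1 else 0
  by_cases h2 : R P (w : N) (QuotientGroup.mk a : N ⧸ P.B) (QuotientGroup.mk b)
  · rw [if_pos h2, if_pos (h1.1 h2)]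
  · rw [if_neg h2, if_neg (fun h => h2 (h1.2 h))]

/-- **The action and the distance.** -/
theorem dl_smul (hS : Stab N P) (g : G) {t : N} (ht : Keep P (MulAut.conj t * MulAut.conjNormal g))
    (x y : Ch N P) : (letI := chAct hS; dl (g • x) (g • y)) =
      fW P (MulAut.conj t * MulAut.conjNormal g) (dl x y) := by
  obtain ⟨a, rfl⟩ := QuotientGroup.mk_surjective (s := P.B) x
  obtain ⟨b, rfl⟩ := QuotientGroup.mk_surjective (s := P.B) y
  letI := chAct hS
  have h1 : g • (mk a : Ch N P) = mk ((MulAut.conjNormal g : MulAut N) a * t⁻¹) := smul_mk hS g ht a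
  have h2 : g • (mk b : Ch N P) = mk ((MulAut.conjNormal g : MulAut N) b * t⁻¹) := smul_mk hS g ht b
  show dl (g • (mk a : Ch N P)) (g • mk b) =
    fW P (MulAut.conj t * MulAut.conjNormal g) (dl (mk a : Ch N P) (mk b))
  rw [h1, h2, dl_mk, dl_mk, fW_wt _ ht]
  congr 1
  rw [MulAut.mul_apply, MulAut.conj_apply, map_mul, map_inv]
  group

include hcs in
/-- The Hecke matrices of the fundamental reflections are permuted by `G`. -/
theorem T_smul (hS : Stab N P) [Cox cs] (g : G) {t : N}
    (ht : Keep P (MulAut.conj t * MulAut.conjNormal g)) (i : I) (x y : Ch N P) :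
    (letI := chAct hS; (T P (e (sg e cs hcs ht i) : N) : Matrix (N ⧸ P.B) (N ⧸ P.B) ℝ) (g • x) (g • y)) =
      (T P (e i : N) : Matrix (N ⧸ P.B) (N ⧸ P.B) ℝ) x y := by
  classical
  letI := chAct hS
  have h1 := T_eq (P := P) ⟨(e (sg e cs hcs ht i) : N), P.subset (e (sg e cs hcs ht i)).2⟩
    (g • x) (g • y)
  have h2 := T_eq (P := P) ⟨(e i : N), P.subset (e i).2⟩ x y
  rw [← hcs] at h1 h2
  refine h1.trans (Eq.trans ?_ h2.symm)
  have h3 : dl (g • x) (g • y) = fW P (MulAut.conj t * MulAut.conjNormal g) (dl x y) :=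
    dl_smul hS g ht x y
  rw [h3, ← fW_simple' e cs hcs ht i]
  have hinj : Function.Injective (fW P (MulAut.conj t * MulAut.conjNormal g)) := fW_injective _ ht
  simp only [hinj.eq_iff]

end types

end Cfsg.Agent.H610.EB
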