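import Cfsg.Agent.H610.EB.Cham
import Cfsg.Agent.H694.EB.Data

/-!
# Framework F on the chambers of a (B,N)-pair of rank two
-/

set_option autoImplicit false
set_option linter.unusedSectionVars false
set_option linter.style.haveILetI false

namespace Cfsg.Agent.H610.EB

open Cfsg Cfsg.Agent.H694 Cfsg.Agent.H694.EB
open scoped ComplexConjugate
open Cfsg.Agent.Characters.Core
open Cfsg.Agent.LieExceptional.BNPairCore Cfsg.Agent.Tits.Core Cfsg.Agent.Tits.Core.Bldg
  Cfsg.Agent.Tits.OfBN Cfsg.Agent.Schreier.BNSch Cfsg.Agent.Tits.OppRes Cfsg.Agent.FixBN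
  Cfsg.Agent.FixBN.TwOfBN Cfsg.Agent.OddHalf.Table.AutBldg
open Cfsg.Agent.LieRecognition.FeitHigmanGroup (R T T_apply R_mk_iff q T_sq alt)
open Cfsg.Agent.H740.Eight.Hecke (Inv mem_span T_mul_mem Tc)
open Cfsg.Agent.H740.Eight.HeckeDeg (hecke_data)

universe u v

section prim

variable {K : Type u} [Group K] [Finite K] {P : BNPair K} [Fintype (K ⧸ P.B)] [DecidableEq (K ⧸ P.B)]

/-- **Primitive idempotents of the Hecke algebra.** -/
theorem prim_of {s t : K} (hS : P.S = {s, t}) {e : Matrix (K ⧸ P.B) (K ⧸ P.B) ℝ}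
    (he : e * e = e) {α c₁ c₂ c₃ : ℝ} (h1 : T P s * e = α • e)
    (h2 : T P s * (T P t * e) = c₁ • e + c₂ • (T P t * e)) (h3 : e * (T P t * e) = c₃ • e)
    (Mx : Matrix (K ⧸ P.B) (K ⧸ P.B) ℂ) (hM : Inv K Mx) :
    ∃ c : ℂ, e.map Complex.ofReal * Mx * e.map Complex.ofReal = c • e.map Complex.ofReal := by
  classical
  have ht : t ∈ P.S := by rw [hS]; simp
  set U : Submodule ℝ (Matrix (K ⧸ P.B) (K ⧸ P.B) ℝ) := Submodule.span ℝ {e, T P t * e} with hU
  have heU : e ∈ U := Submodule.subset_span (by simp)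
  have hfU : T P t * e ∈ U := Submodule.subset_span (by simp)
  have hA : ∀ x ∈ U, T P s * x ∈ U := by
    intro x hx
    obtain ⟨a, b, rfl⟩ := Submodule.mem_span_pair.1 hx
    rw [mul_add, mul_smul_comm, mul_smul_comm, h1, h2]
    exact U.add_mem (U.smul_mem _ (U.smul_mem _ heU)) (U.smul_mem _ (U.add_mem (U.smul_mem _ heU) (U.smul_mem _ hfU)))
  have hB : ∀ x ∈ U, T P t * x ∈ U := by
    intro x hx
    obtain ⟨a, b, rfl⟩ := Submodule.mem_span_pair.1 hx
    rw [mul_add, mul_smul_comm, mul_smul_comm, ← mul_assoc (T P t) (T P t), T_sq ht, add_mul, smul_mul_assoc,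
      smul_mul_assoc, one_mul]
    exact U.add_mem (U.smul_mem _ hfU) (U.smul_mem _ (U.add_mem (U.smul_mem _ hfU) (U.smul_mem _ heU)))
  have hcor : ∀ w : K, ∃ c : ℝ, e * T P w * e = c • e := by
    intro w
    obtain ⟨a, b, hab⟩ := Submodule.mem_span_pair.1 (T_mul_mem hS U hA hB w heU)
    refine ⟨a + b * c₃, ?_⟩
    rw [mul_assoc, ← hab, mul_add, mul_smul_comm, mul_smul_comm, he, h3, smul_smul, add_smul]
  have hmul : ∀ A B : Matrix (K ⧸ P.B) (K ⧸ P.B) ℝ, (A * B).map Complex.ofReal =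
      A.map Complex.ofReal * B.map Complex.ofReal := fun A B => Matrix.map_mul (f := Complex.ofRealHom)
  refine Submodule.span_induction (p := fun M _ => ∃ c : ℂ,
    e.map Complex.ofReal * M * e.map Complex.ofReal = c • e.map Complex.ofReal) ?_ ?_ ?_ ?_ (mem_span hM)
  · rintro _ ⟨w, rfl⟩
    obtain ⟨c, hc⟩ := hcor w
    refine ⟨c, ?_⟩
    show e.map Complex.ofReal * (T P w).map Complex.ofReal * e.map Complex.ofReal = _
    rw [← hmul, ← hmul, hc]
    ext x y
    simp
  · exact ⟨0, by simp⟩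
  · rintro A B _ _ ⟨a, ha⟩ ⟨b, hb⟩
    exact ⟨a + b, by rw [mul_add, add_mul, ha, hb, add_smul]⟩
  · rintro a A _ ⟨b, hb⟩
    exact ⟨a * b, by rw [mul_smul_comm, smul_mul_assoc, hb, smul_smul]⟩

end prim

/-! ### Rational matrices -/

/-- The entries are rational. -/
def IsRat {X : Type*} (e : Matrix X X ℝ) : Prop := ∃ e₀ : Matrix X X ℚ, ∀ x y, e x y = (e₀ x y : ℝ)

section rat

variable {X : Type*} [Fintype X] [DecidableEq X]

theorem IsRat.mul {e f : Matrix X X ℝ} (he : IsRat e) (hf : IsRat f) : IsRat (e * f) := by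
  obtain ⟨e₀, he⟩ := he
  obtain ⟨f₀, hf⟩ := hf
  refine ⟨e₀ * f₀, fun x y => ?_⟩
  rw [Matrix.mul_apply, Matrix.mul_apply]
  push_cast
  exact Finset.sum_congr rfl fun z _ => by rw [he, hf]

omit [Fintype X] [DecidableEq X] in
theorem IsRat.add {e f : Matrix X X ℝ} (he : IsRat e) (hf : IsRat f) : IsRat (e + f) := by
  obtain ⟨e₀, he⟩ := he
  obtain ⟨f₀, hf⟩ := hf
  refine ⟨e₀ + f₀, fun x y => ?_⟩
  rw [Matrix.add_apply, Matrix.add_apply, he, hf]
  push_cast
  rfl

omit [Fintype X] [DecidableEq X] in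
theorem IsRat.smul {e : Matrix X X ℝ} (he : IsRat e) (c : ℚ) : IsRat ((c : ℝ) • e) := by
  obtain ⟨e₀, he⟩ := he
  refine ⟨c • e₀, fun x y => ?_⟩
  rw [Matrix.smul_apply, Matrix.smul_apply, he]
  simp

omit [Fintype X] in
theorem IsRat.one : IsRat (1 : Matrix X X ℝ) := by
  refine ⟨1, fun x y => ?_⟩
  rw [Matrix.one_apply, Matrix.one_apply]
  split_ifs <;> simp

omit [Fintype X] [DecidableEq X] in
theorem IsRat.zero : IsRat (0 : Matrix X X ℝ) := ⟨0, fun x y => by simp⟩

theorem IsRat.pow {e : Matrix X X ℝ} (he : IsRat e) (n : ℕ) : IsRat (e ^ n) := by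
  induction n with
  | zero => rw [pow_zero]; exact IsRat.one
  | succ n ih => rw [pow_succ]; exact ih.mul he

theorem IsRat.aeval {e : Matrix X X ℝ} (he : IsRat e) (g : Polynomial ℚ) :
    IsRat (Polynomial.aeval e (g.map (algebraMap ℚ ℝ))) := by
  induction g using Polynomial.induction_on' with
  | add p q hp hq => rw [Polynomial.map_add, map_add]; exact hp.add hq
  | monomial n c =>
    rw [Polynomial.map_monomial, Polynomial.aeval_monomial, Algebra.algebraMap_eq_smul_one,
      smul_mul_assoc, one_mul]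
    exact (he.pow n).smul c

end rat

section hecke

variable {G : Type u} [Group G] [Fintype G] {M : Ideal AlgInt} {k : ℕ}
variable (N : Subgroup G) [hNn : N.Normal] [Fintype N] (J : Subgroup G) [hJn : J.Normal]
  {P : Cfsg.BNPair N}

/-- The Hecke matrices on the chambers. -/
noncomputable def TC {N : Subgroup G} [N.Normal] {P : Cfsg.BNPair N} (w : N) :
    Matrix (Ch N P) (Ch N P) ℝ := T P w

variable {N}

/-- The instances on the quotient. -/
@[reducible] noncomputable def fq (P : Cfsg.BNPair N) : Fintype (N ⧸ P.B) :=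
  (inferInstance : Fintype (Ch N P))

@[reducible] noncomputable def dq (P : Cfsg.BNPair N) : DecidableEq (N ⧸ P.B) :=
  (inferInstance : DecidableEq (Ch N P))

/-- Left translations. -/
noncomputable def std (n : N) (x : Ch N P) : Ch N P := @HSMul.hSMul N (N ⧸ P.B) (N ⧸ P.B) _ n x

theorem isRat_TC (w : N) : IsRat (TC w : Matrix (Ch N P) (Ch N P) ℝ) := by
  classical
  refine ⟨Matrix.of fun x y => if R P w x y then 1 else 0, fun x y => ?_⟩
  have h1 : TC w x y = if R P w x y then 1 else 0 := T_apply w x y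
  rw [h1, Matrix.of_apply]
  split_ifs <;> simp

theorem TC_sq {s : N} (hs : s ∈ P.S) : (TC s : Matrix (Ch N P) (Ch N P) ℝ) * TC s =
    ((q P s : ℝ) - 1) • TC s + (q P s : ℝ) • (1 : Matrix (Ch N P) (Ch N P) ℝ) := by
  letI := fq P
  letI := dq P
  exact T_sq hs

theorem TC_data {s t : N} (hS : P.S = {s, t}) (hst : s ≠ t) {n : ℕ}
    (hn : ((P.B ⊓ P.N).subgroupOf P.N).index = 2 * n) :
    alt n (TC s : Matrix (Ch N P) (Ch N P) ℝ) (TC t) = alt n (TC t) (TC s) ∧
      ∀ k, 1 ≤ k → k ≤ n → (alt k (TC s : Matrix (Ch N P) (Ch N P) ℝ) (TC t)).trace = 0 ∧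
        (alt k (TC t : Matrix (Ch N P) (Ch N P) ℝ) (TC s)).trace = 0 := by
  letI := fq P
  letI := dq P
  exact hecke_data hS hst hn

/-- **Framework F for the Hecke algebra of rank two.** -/
theorem concl_of_hecke (hM : IsPModular 2 M) (hNJ : N ≤ J) (hodd : Odd (N.relIndex J))
    (hidx : ∃ j : ℕ, J.index = 2 ^ j) (hk : IsK G k) (hSt : Stab N P) {s t : N}
    (hS : P.S = {s, t}) {e : Matrix (Ch N P) (Ch N P) ℝ} (hinv : letI := chAct hSt; Inv G e)
    (hrat : IsRat e) (he : e * e = e) {α c₁ c₂ c₃ : ℝ} (h1 : TC s * e = α • e)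
    (h2 : TC s * (TC t * e) = c₁ • e + c₂ • (TC t * e)) (h3 : e * (TC t * e) = c₃ • e)
    {d : ℕ} (htr : e.trace = d) (hd : Even d) (hd0 : d ≠ 0) (hmem : InB0 (cls P.B)) :
    Concl M G N k := by
  classical
  letI := chAct hSt
  obtain ⟨e₀, he₀⟩ := hrat
  have hmul : ∀ A B : Matrix (Ch N P) (Ch N P) ℝ, (A * B).map Complex.ofReal =
      A.map Complex.ofReal * B.map Complex.ofReal := fun A B => Matrix.map_mul (f := Complex.ofRealHom)
  have hinv' : Inv G (e.map Complex.ofReal) := hinv.map Complex.ofReal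
  have he' : e.map Complex.ofReal * e.map Complex.ofReal = e.map Complex.ofReal := by rw [← hmul, he]
  have hact : ∀ (n : N) (x : Ch N P), n • x = std n x := by
    intro n x
    obtain ⟨a, rfl⟩ := QuotientGroup.mk_surjective (s := P.B) x
    exact coe_smul hSt n a
  have hprim : ∀ M : Matrix (Ch N P) (Ch N P) ℂ, Inv N M →
      ∃ c : ℂ, e.map Complex.ofReal * M * e.map Complex.ofReal = c • e.map Complex.ofReal := by
    intro Mx hMx
    letI := fq P
    letI := dq P
    refine prim_of (P := P) hS (e := e) he h1 h2 h3 Mx ?_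
    intro n x y
    have h4 : Mx (n • (show Ch N P from x)) (n • (show Ch N P from y)) = Mx x y := hMx n x y
    have h5 := hact n x
    have h6 := hact n y
    exact (congrArg₂ Mx h5.symm h6.symm).trans h4
  have htr' : (e.map Complex.ofReal).trace = (d : ℂ) := by
    have h5 : (e.map Complex.ofReal).trace = ((e.trace : ℝ) : ℂ) := by
      rw [Matrix.trace, Matrix.trace, Complex.ofReal_sum]
      rfl
    rw [h5, htr]
    simp
  refine concl_of_idem hM N J hNJ hodd hidx hk hinv' he' hprim htr' hd hd0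
    (ic_pow_of_rat (ic_isCharacter hinv' he') e₀ (fun x y => by
      rw [Matrix.map_apply, he₀]
      simp) hk.coprime) ?_
  intro φ hφ
  refine hmem M hM φ ?_
  have hirr : IsIrrCharacter N (ic N (e.map Complex.ofReal)) := by
    rw [← hφ]
    exact φ.2
  have h6 := mu_ic_ne_zero (G := N) (X := Ch N P) (Inv.sub' hinv' N) he' hirr
  rw [hφ]
  have h7 : permS (cls P.B) = fun g : N => (Nat.card {x : Ch N P // g • x = x} : ℂ) := by
    funext g
    rw [permS_cls normalizer_B]
    congr 1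
    refine Nat.card_congr (Equiv.subtypeEquivRight fun x => ?_)
    have h8 := hact g x
    exact ⟨fun h => h8.trans h, fun h => h8.symm.trans h⟩
  rw [h7]
  exact h6

end hecke

end Cfsg.Agent.H610.EB
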