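import Cfsg.Agent.H610.EB.HexG
import Cfsg.Agent.H410.EBG.Swap
import Cfsg.Agent.H410.EBG.G2D4

/-!
# `EvenJ` for `G₂(q)` and `³D₄(q)`, `q` odd
-/

set_option autoImplicit false
set_option linter.unusedSectionVars false

namespace Cfsg.Agent.H610.EB

open Cfsg Cfsg.Agent.H694 Cfsg.Agent.H694.EB Cfsg.Agent.H684.EB
open Cfsg.Agent.Characters.Core
open Cfsg.Agent.LieExceptional.BNPairCore Cfsg.Agent.Tits.Core Cfsg.Agent.Tits.Core.Bldg
  Cfsg.Agent.Tits.OfBN Cfsg.Agent.Schreier.BNSch Cfsg.Agent.Tits.OppRes Cfsg.Agent.FixBN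
  Cfsg.Agent.FixBN.TwOfBN Cfsg.Agent.OddHalf.Table.AutBldg
open Cfsg.Agent.H410.EBG (HasSplitB0 hasSplitB0_G2 hasSplitB0_D4)

universe u

/-- **Type `G₂`, odd characteristic.** -/
theorem evenJ_of_hasSplitB0 {S : Type u} [Group S] {p : ℕ} (hp : p.Prime) (hp2 : p ≠ 2)
    (h : ∀ (T : Type u) [Group T] [Finite T], Nonempty (S ≃* T) → HasSplitB0 p CoxeterMatrix.G₂ T) : EvenJ S := by
  classical
  intro G _ _ N _ _ f _ J _ hNJ ho hi k hk M hM
  have : Fact p.Prime := ⟨hp⟩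
  obtain ⟨P, U, e, hsp, ⟨hN, cs, hcs⟩, hB0⟩ := h N f
  by_cases hty : ∀ (g : G) (t : N) (ht : Keep P (MulAut.conj t * MulAut.conjNormal g)) (i : Fin 2),
      sg e cs hcs ht i = i
  · exact concl_fix_G2 N J e cs hcs hM hNJ ho hi hk (hp.odd_of_ne_two hp2) hsp hB0 hty
  · push Not at hty
    exact Cfsg.Agent.H410.EBG.concl_swap_G2 N J hNJ hM ho hi hk hsp e cs hcs hB0 hty

/-- **`G₂(q)`, `q` odd.** -/
theorem evenJ_G2 {S : Type u} [Group S] [Finite S] [IsSimpleGroup S] {K : Type*} [Field K] [Finite K]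
    (p : ℕ) [CharP K p] (hp2 : p ≠ 2) (e : S ≃* ↥(Cfsg.Lie.chevG2.group K)) : EvenJ S := by
  refine evenJ_of_hasSplitB0 (CharP.char_is_prime K p) hp2 ?_
  intro T _ _ ⟨f⟩
  have : Nontrivial T := f.symm.toEquiv.nontrivial
  have : IsSimpleGroup T := IsSimpleGroup.isSimpleGroup_of_surjective f.toMonoidHom f.surjective
  exact hasSplitB0_G2 p hp2 (f.symm.trans e)

/-- **`³D₄(q)`, `q` odd.** -/
theorem evenJ_D4 {S : Type u} [Group S] [Finite S] [IsSimpleGroup S] {K : Type*} [Field K] [Fintype K] {q : ℕ}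
    (hq : IsPrimePow q) (hK : Fintype.card K = q ^ 3) (p : ℕ) [CharP K p] (hp2 : p ≠ 2)
    (e : S ≃* ↥(Cfsg.Lie.twistedD4 K q)) : EvenJ S := by
  refine evenJ_of_hasSplitB0 (CharP.char_is_prime K p) hp2 ?_
  intro T _ _ ⟨f⟩
  have : Nontrivial T := f.symm.toEquiv.nontrivial
  have : IsSimpleGroup T := IsSimpleGroup.isSimpleGroup_of_surjective f.toMonoidHom f.surjective
  exact hasSplitB0_D4 hq hK p hp2 (f.symm.trans e)

end Cfsg.Agent.H610.EB
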