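import Cfsg.Agent.H740.Eight.HeckeAlg
import Cfsg.Agent.LieRecognition.FeitHigmanMatrix

/-!
# A central idempotent of the Hecke algebra of type `G₂`

`A² = (a-1)A + a`, `B² = (b-1)B + b`, `(AB)³ = (BA)³`, `r² = ab`. The idempotent `hp` of the
central element `Y` for the eigenvalue `-r`, and the trace of `hp (1 + A)`.
-/

set_option autoImplicit false
set_option linter.unusedSectionVars false

namespace Cfsg.Agent.H610.EB.Hex

open Polynomial
open Cfsg.Agent.LieRecognition.FeitHigmanHecke (Y Y_def Y_symm Y_mul_A Y_mul_B Y_mul_AB comm_sq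
  aeval_P_mul P P_zero P_one P_add_two)
open Cfsg.Agent.LieRecognition.FeitHigmanMatrix (trace_idem)
open Cfsg.Agent.H740.Eight.HeckeAlg

section alg

variable {M : Type*} [Ring M] [Algebra ℝ M] {A B : M} {a b r : ℝ}

/-- the polynomial `(X - (ab+1)) (X + (a+b)) (X - r)` -/
noncomputable def gp (a b r : ℝ) : ℝ[X] := (X - C (a * b + 1)) * (X + C (a + b)) * (X - C r)

theorem gp_eval (a b r x : ℝ) : (gp a b r).eval x = (x - (a * b + 1)) * (x + (a + b)) * (x - r) := by
  simp [gp]

theorem gp_expand (a b r : ℝ) : gp a b r = X ^ 3 + C ((a + b) - (a * b + 1) - r) * X ^ 2 -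
    C ((a * b + 1) * (a + b) + r * ((a + b) - (a * b + 1))) * X + C (r * ((a * b + 1) * (a + b))) := by
  rw [gp]
  simp only [map_mul, map_sub, map_add, map_one]
  ring

theorem aeval_lin (y : M) (u : ℝ) : aeval y (X - C u) = y - u • (1 : M) := by
  rw [map_sub, aeval_X, aeval_C, Algebra.algebraMap_eq_smul_one]

theorem aeval_lin' (y : M) (u : ℝ) : aeval y (X + C u) = y + u • (1 : M) := by
  rw [map_add, aeval_X, aeval_C, Algebra.algebraMap_eq_smul_one]

theorem aeval_cubic (y : M) (c₂ c₁ c₀ : ℝ) :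
    aeval y (X ^ 3 + C c₂ * X ^ 2 - C c₁ * X + C c₀) = y ^ 3 + c₂ • y ^ 2 - c₁ • y + c₀ • (1 : M) := by
  rw [map_add, map_sub, map_add, map_mul, map_mul, map_pow, map_pow, aeval_X, aeval_C, aeval_C,
    aeval_C, Algebra.algebraMap_eq_smul_one, Algebra.algebraMap_eq_smul_one,
    Algebra.algebraMap_eq_smul_one, smul_mul_assoc, smul_mul_assoc, one_mul, one_mul]

theorem aeval_gp (hA : A * A = (a - 1) • A + a • (1 : M)) (hB : B * B = (b - 1) • B + b • (1 : M))
    (hbr : (A * B) ^ 3 = (B * A) ^ 3) (hr : r ^ 2 = a * b) :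
    aeval (Y A B a b) ((X + C r) * gp a b r) = 0 := by
  have h1 := aeval_P_mul hA hB 2
  rw [hbr, sub_self] at h1
  have h2 : P (a * b) 2 = (X + C r) * (X - C r) := by
    rw [show (2 : ℕ) = 0 + 2 from rfl, P_add_two, P_zero, P_one, ← hr]
    simp only [map_pow]
    ring
  rw [h2] at h1
  have h3 : (X + C r) * gp a b r = ((X + C r) * (X - C r)) * ((X - C (a * b + 1)) * (X + C (a + b))) := by
    rw [gp]
    ring
  rw [h3, map_mul, map_mul _ (X - C (a * b + 1)) _, aeval_lin, aeval_lin', ← comm_sq hA hB, ← mul_assoc, h1, zero_mul]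

theorem Y_gp (hA : A * A = (a - 1) • A + a • (1 : M)) (hB : B * B = (b - 1) • B + b • (1 : M))
    (hbr : (A * B) ^ 3 = (B * A) ^ 3) (hr : r ^ 2 = a * b) :
    Y A B a b * aeval (Y A B a b) (gp a b r) = (-r) • aeval (Y A B a b) (gp a b r) := by
  have h1 := aeval_gp hA hB hbr hr
  rw [map_mul, aeval_lin', add_mul, smul_mul_assoc, one_mul] at h1
  rw [neg_smul, eq_neg_iff_add_eq_zero]
  exact h1

theorem aeval_mul_eigen {y x : M} {θ : ℝ} (h : y * x = θ • x) (g : ℝ[X]) :
    aeval y g * x = g.eval θ • x := by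
  induction g using Polynomial.induction_on' with
  | add p q hp hq => rw [map_add, add_mul, hp, hq, eval_add, add_smul]
  | monomial n c =>
    rw [aeval_monomial, eval_monomial, Algebra.algebraMap_eq_smul_one, smul_mul_assoc, one_mul,
      smul_mul_assoc]
    have h2 : ∀ n : ℕ, y ^ n * x = θ ^ n • x := by
      intro n
      induction n with
      | zero => rw [pow_zero, one_mul, pow_zero, one_smul]
      | succ n ih => rw [pow_succ', mul_assoc, ih, mul_smul_comm, h, smul_smul, pow_succ]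
    rw [h2, smul_smul]

/-- the value of the polynomial at `-r` -/
noncomputable def cc (a b r : ℝ) : ℝ := 2 * r * (r ^ 2 + r + 1) * (a + b - r)

theorem cc_eq (hr : r ^ 2 = a * b) : (gp a b r).eval (-r) = cc a b r := by
  rw [gp_eval, cc]
  linear_combination (-(2 * r * (a + b - r))) * hr

/-- the idempotent -/
noncomputable def hp (A B : M) (a b r : ℝ) : M := (cc a b r)⁻¹ • aeval (Y A B a b) (gp a b r)

theorem hp_comm (hA : A * A = (a - 1) • A + a • (1 : M)) : A * hp A B a b r = hp A B a b r * A := by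
  have h1 : Commute A (Y A B a b) := (Y_mul_A hA).symm
  have h2 : Commute A (aeval (Y A B a b) (gp a b r)) := by
    rw [gp_expand, aeval_cubic]
    exact ((((h1.pow_right 3).add_right ((h1.pow_right 2).smul_right _)).sub_right
      (h1.smul_right _))).add_right ((Commute.one_right A).smul_right _)
  rw [hp, mul_smul_comm, smul_mul_assoc, h2.eq]

theorem Y_hp (hA : A * A = (a - 1) • A + a • (1 : M)) (hB : B * B = (b - 1) • B + b • (1 : M))
    (hbr : (A * B) ^ 3 = (B * A) ^ 3) (hr : r ^ 2 = a * b) :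
    Y A B a b * hp A B a b r = (-r) • hp A B a b r := by
  rw [hp, mul_smul_comm, Y_gp hA hB hbr hr, smul_comm]

theorem hp_sq (hA : A * A = (a - 1) • A + a • (1 : M)) (hB : B * B = (b - 1) • B + b • (1 : M))
    (hbr : (A * B) ^ 3 = (B * A) ^ 3) (hr : r ^ 2 = a * b) (hc : cc a b r ≠ 0) :
    hp A B a b r * hp A B a b r = hp A B a b r := by
  have h1 := aeval_mul_eigen (Y_hp hA hB hbr hr) (gp a b r)
  rw [cc_eq hr] at h1
  nth_rw 1 [hp]
  rw [smul_mul_assoc, h1, smul_smul, inv_mul_cancel₀ hc, one_smul]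

end alg

section trace

variable {X : Type*} [Fintype X] [DecidableEq X] {A B : Matrix X X ℝ} {a b r : ℝ}

/-- **The trace.** -/
theorem trace_hp (hA : A * A = (a - 1) • A + a • (1 : Matrix X X ℝ))
    (hB : B * B = (b - 1) • B + b • (1 : Matrix X X ℝ)) (hr : r ^ 2 = a * b)
    (hAB : ∀ k, 1 ≤ k → k ≤ 3 → ((A * B) ^ k).trace = 0) (hAt : A.trace = 0) (hBt : B.trace = 0)
    {n : ℝ} (hN : (1 : Matrix X X ℝ).trace = n) (hc : cc a b r ≠ 0) :
    cc a b r * ((hp A B a b r).trace + (hp A B a b r * A).trace) = r ^ 3 * (1 + a) * n := by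
  set y := Y A B a b with hy
  have hcA : A * y = y * A := (Y_mul_A hA).symm
  have hcB : B * y = y * B := (Y_mul_B hB).symm
  have hkA : ∀ k : ℕ, A * y ^ k = y ^ k * A := fun k => (show Commute A y from hcA).pow_right k
  have hkB : ∀ k : ℕ, B * y ^ k = y ^ k * B := fun k => (show Commute B y from hcB).pow_right k
  have t : ∀ k : ℕ, (y ^ (k + 1)).trace = 2 * (y ^ k * (A * B)).trace - (b - 1) * (y ^ k * A).trace -
      (a - 1) * (y ^ k * B).trace + (a - 1) * (b - 1) * (y ^ k).trace := by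
    intro k
    have := tr_Y (A := A) (B := B) (a := a) (b := b) (hkA k)
    rw [← hy, ← pow_succ] at this
    rw [this]
  have s : ∀ k : ℕ, (y ^ (k + 1) * A).trace = (a - 1) * (y ^ k * (A * B)).trace +
      2 * a * (y ^ k * B).trace - a * (b - 1) * (y ^ k).trace := by
    intro k
    have := tr_YA (B := B) (a := a) (b := b) hA (hkA k)
    rw [← hy, ← pow_succ] at this
    rw [this]
  have u : ∀ k : ℕ, (y ^ (k + 1) * B).trace = (b - 1) * (y ^ k * (A * B)).trace +
      2 * b * (y ^ k * A).trace - b * (a - 1) * (y ^ k).trace := by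
    intro k
    have := tr_YB (A := A) (a := a) (b := b) hB (hkA k) (hkB k)
    rw [← hy, ← pow_succ] at this
    rw [this]
  have v : ∀ k j : ℕ, (y ^ (k + 1) * (A * B) ^ (j + 1)).trace = (y ^ k * (A * B) ^ (j + 2)).trace +
      a * b * (y ^ k * (A * B) ^ j).trace := by
    intro k j
    have h1 : y * (A * B) ^ (j + 1) = (A * B) ^ (j + 2) + (a * b) • (A * B) ^ j := by
      have := Y_mul_AB hA hB
      rw [← hy] at this
      rw [pow_succ', ← mul_assoc, this, add_mul, smul_mul_assoc, one_mul, pow_succ', pow_succ', mul_assoc]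
    rw [pow_succ, mul_assoc, h1, mul_add, Matrix.trace_add, mul_smul_comm, Matrix.trace_smul, smul_eq_mul]
  have v01 := hAB 1 (by norm_num) (by norm_num)
  have v02 := hAB 2 (by norm_num) (by norm_num)
  have v03 := hAB 3 (by norm_num) (by norm_num)
  have v1 := v 0 0
  have v2 := v 1 0
  have v12 := v 0 1
  have t1 := t 0
  have t2 := t 1
  have t3 := t 2
  have s1 := s 0
  have s2 := s 1
  have s3 := s 2
  have u1 := u 0
  have u2 := u 1
  simp only [zero_add, pow_zero, pow_one, one_mul, mul_one] at v1 v2 v12 t1 t2 t3 s1 s2 s3 u1 u2 v01 v02 v03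
  rw [hN] at t1 s1 u1 v1
  have e1 : aeval y (gp a b r) = y ^ 3 + ((a + b) - (a * b + 1) - r) • y ^ 2 -
      ((a * b + 1) * (a + b) + r * ((a + b) - (a * b + 1))) • y +
      (r * ((a * b + 1) * (a + b))) • (1 : Matrix X X ℝ) := by
    rw [gp_expand, aeval_cubic]
  have e2 : cc a b r * ((hp A B a b r).trace + (hp A B a b r * A).trace) =
      (aeval y (gp a b r)).trace + (aeval y (gp a b r) * A).trace := by
    rw [hp, smul_mul_assoc, Matrix.trace_smul, Matrix.trace_smul, smul_eq_mul, smul_eq_mul, ← mul_add,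
      ← mul_assoc, mul_inv_cancel₀ hc, one_mul]
  rw [e2, e1]
  simp only [add_mul, sub_mul, smul_mul_assoc, one_mul, Matrix.trace_add, Matrix.trace_sub,
    Matrix.trace_smul, smul_eq_mul, hN]
  rw [t3, s3, v2, t2, s2, u2, v12, v03, v1, t1, s1, u1, v02, v01, hAt, hBt]
  have hb : r ^ 3 = r * (a * b) := by rw [pow_succ, hr]; ring
  rw [hb]
  ring

end trace

end Cfsg.Agent.H610.EB.Hex
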