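import Cfsg.Agent.H610.EB.Cham2
import Cfsg.Agent.H610.EB.HexAlg
import Cfsg.Agent.H580.RankTwo
import Cfsg.Agent.S1092
import Cfsg.Agent.H684.EB.Base

/-!
# Groups of type `G₂` in odd characteristic: a principal series character of even degree

`concl_fix_G2`: the conclusion of S4522 for `N ≤ J ≤ G` if `N` has a split (B,N)-pair of type `G₂` in odd
characteristic, the constituents of the permutation character on the chambers are in the principal `2`-block,
and `G` preserves the types.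
-/

set_option autoImplicit false
set_option linter.unusedSectionVars false
set_option linter.style.haveILetI false

namespace Cfsg.Agent.H610.EB

open Cfsg Cfsg.Agent.H694 Cfsg.Agent.H694.EB
open scoped ComplexConjugate
open Cfsg.Agent.Characters.Core
open Cfsg.Agent.LieExceptional.BNPairCore Cfsg.Agent.Tits.Core Cfsg.Agent.Tits.Core.Bldg
  Cfsg.Agent.Tits.OfBN Cfsg.Agent.Schreier.BNSch Cfsg.Agent.Tits.OppRes Cfsg.Agent.FixBN
  Cfsg.Agent.FixBN.TwOfBN Cfsg.Agent.OddHalf.Table.AutBldg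
open Cfsg.Agent.LieRecognition.FeitHigmanGroup (R T T_apply R_mk_iff q T_sq alt two_le_q)
open Cfsg.Agent.LieRecognition.FeitHigmanHecke (Y Y_def)
open Cfsg.Agent.LieRecognition.FeitHigmanMatrix (trace_idem)
open Cfsg.Agent.H740.Eight.Hecke (Inv mem_span T_mul_mem Tc)
open Cfsg.Agent.H740.Eight.HeckeDeg (hecke_data alt_two_mul)
open Cfsg.Agent.H740.Eight.HeckeAlg (ee ee_def ee_sq A_ee A_B_ee ee_B_ee)

universe u v

/-! ### Arithmetic -/

theorem hex_arith {a b n d : ℕ} {r : ℝ} (ha : Odd a) (hb : Odd b) (ha2 : 2 ≤ a) (hb2 : 2 ≤ b) (hr0 : 0 < r)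
    (hr : r ^ 2 = a * b) (h4 : 4 ∣ n) (hn : 0 < n)
    (h : 2 * (r ^ 2 + r + 1) * (a + b - r) * d = r ^ 2 * n) : (∃ m : ℕ, r = m) ∧ Even d ∧ d ≠ 0 := by
  have hd0 : d ≠ 0 := by
    rintro rfl
    have h1 : (0 : ℝ) < r ^ 2 * n := by positivity
    rw [← h] at h1
    simp at h1
  have ha2' : (2 : ℝ) ≤ a := by exact_mod_cast ha2
  have hb2' : (2 : ℝ) ≤ b := by exact_mod_cast hb2
  -- `r` is rational
  have h2 : r * (2 * d * ((a - 1) * (b - 1))) = 2 * d * ((a * b + 1) * (a + b) - a * b) - a * b * n := by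
    have e1 : 2 * ((r ^ 2 + r + 1) * (a + b - r)) * d = r ^ 2 * n := by linarith [h]
    have e2 : (r ^ 2 + r + 1) * (a + b - r) = (a * b + 1) * (a + b) - a * b - r * ((a - 1) * (b - 1)) := by
      have e3 : (r ^ 2 + r + 1) * (a + b - r) = (r ^ 2 + 1) * (a + b) - r ^ 2 + r * (a + b - r ^ 2 - 1) := by
        ring
      rw [e3, hr]
      ring
    rw [e2, hr] at e1
    linarith
  have hd' : (0 : ℝ) < d := by exact_mod_cast Nat.pos_of_ne_zero hd0
  have hne : (2 * (d : ℝ) * ((a - 1) * (b - 1))) ≠ 0 := by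
    have e1 : (0 : ℝ) < (a : ℝ) - 1 := by linarith
    have e2 : (0 : ℝ) < (b : ℝ) - 1 := by linarith
    positivity
  have hrat : ¬ Irrational r := by
    rw [Irrational]
    push Not
    refine ⟨((2 * d * ((a * b + 1) * (a + b) - a * b) - a * b * n : ℤ) : ℚ) /
      ((2 * d * ((a - 1) * (b - 1)) : ℤ) : ℚ), ?_⟩
    push_cast
    rw [div_eq_iff hne]
    exact h2.symm
  have hint : ∃ y : ℤ, r = y := by
    by_contra hcon
    exact hrat (irrational_nrt_of_notint_nrt 2 ((a * b : ℕ) : ℤ) (by rw [hr]; push_cast; ring) hcon (by norm_num))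
  obtain ⟨y, hy⟩ := hint
  have hy0 : 0 < y := by
    rw [hy] at hr0
    exact_mod_cast hr0
  obtain ⟨m, rfl⟩ : ∃ m : ℕ, y = m := ⟨y.toNat, (Int.toNat_of_nonneg hy0.le).symm⟩
  refine ⟨⟨m, by rw [hy]; simp⟩, ?_, hd0⟩
  have hm2 : m ^ 2 = a * b := by
    rw [hy] at hr
    exact_mod_cast hr
  have hmo : Odd m := by
    have h5 : Odd (m ^ 2) := by rw [hm2]; exact ha.mul hb
    exact Nat.Odd.of_mul_left (by rwa [pow_two] at h5)
  obtain ⟨k, rfl⟩ := h4
  have h6 : (2 * (m ^ 2 + m + 1) * (a + b - m) * d : ℤ) = m ^ 2 * (4 * k) := by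
    rw [hy] at h
    exact_mod_cast h
  have h7 : (((m : ℤ) ^ 2 + m + 1) * (a + b - m)) * d = 2 * (m ^ 2 * k) := by linarith
  have h8 : Odd (((m : ℤ) ^ 2 + m + 1) * (a + b - m)) := by
    have hm' : Odd (m : ℤ) := by exact_mod_cast hmo
    have ha' : Odd (a : ℤ) := by exact_mod_cast ha
    have hb' : Odd (b : ℤ) := by exact_mod_cast hb
    refine Odd.mul ?_ ?_
    · exact (hm'.pow.add_odd hm').add_one
    · exact (ha'.add_odd hb').sub_odd hm'
  have h9 : Even ((((m : ℤ) ^ 2 + m + 1) * (a + b - m)) * d) := by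
    rw [h7]
    exact even_two_mul _
  rcases Int.even_mul.1 h9 with h10 | h10
  · exact absurd h10 (Int.not_even_iff_odd.2 h8)
  · exact_mod_cast h10

/-! ### Rational matrices -/

section rat

variable {X : Type*} [Fintype X] [DecidableEq X]

/-- The number is rational. -/
def RatR (c : ℝ) : Prop := ∃ c₀ : ℚ, c = c₀

theorem RatR.nat (n : ℕ) : RatR (n : ℝ) := ⟨n, by simp⟩

theorem RatR.one : RatR 1 := ⟨1, by simp⟩

theorem RatR.add {a b : ℝ} (ha : RatR a) (hb : RatR b) : RatR (a + b) := by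
  obtain ⟨x, rfl⟩ := ha
  obtain ⟨y, rfl⟩ := hb
  exact ⟨x + y, by simp⟩

theorem RatR.sub {a b : ℝ} (ha : RatR a) (hb : RatR b) : RatR (a - b) := by
  obtain ⟨x, rfl⟩ := ha
  obtain ⟨y, rfl⟩ := hb
  exact ⟨x - y, by simp⟩

theorem RatR.mul {a b : ℝ} (ha : RatR a) (hb : RatR b) : RatR (a * b) := by
  obtain ⟨x, rfl⟩ := ha
  obtain ⟨y, rfl⟩ := hb
  exact ⟨x * y, by simp⟩

theorem RatR.pow {a : ℝ} (ha : RatR a) (n : ℕ) : RatR (a ^ n) := by
  obtain ⟨x, rfl⟩ := ha
  exact ⟨x ^ n, by simp⟩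

theorem RatR.inv {a : ℝ} (ha : RatR a) : RatR a⁻¹ := by
  obtain ⟨x, rfl⟩ := ha
  exact ⟨x⁻¹, by simp⟩

theorem IsRat.smul' {e : Matrix X X ℝ} (he : IsRat e) {c : ℝ} (hc : RatR c) : IsRat (c • e) := by
  obtain ⟨c₀, rfl⟩ := hc
  exact he.smul c₀

theorem IsRat.sub {e f : Matrix X X ℝ} (he : IsRat e) (hf : IsRat f) : IsRat (e - f) := by
  have h1 := he.add (hf.smul (-1))
  have h2 : e - f = e + ((-1 : ℚ) : ℝ) • f := by
    push_cast
    module
  rw [h2]
  exact h1

theorem isRat_Y {A B : Matrix X X ℝ} (hA : IsRat A) (hB : IsRat B) {a b : ℝ} (ha : RatR a) (hb : RatR b) :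
    IsRat (Y A B a b) := by
  rw [Y_def]
  exact ((((hA.mul hB).add (hB.mul hA)).sub (hA.smul' (hb.sub RatR.one))).sub (hB.smul' (ha.sub RatR.one))).add
    (IsRat.one.smul' ((ha.sub RatR.one).mul (hb.sub RatR.one)))

theorem isRat_hp {A B : Matrix X X ℝ} (hA : IsRat A) (hB : IsRat B) {a b r : ℝ} (ha : RatR a) (hb : RatR b)
    (hr : RatR r) : IsRat (Hex.hp A B a b r) := by
  have hY := isRat_Y hA hB ha hb
  rw [Hex.hp, Hex.gp_expand, Hex.aeval_cubic]
  refine IsRat.smul' ?_ ?_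
  · refine (((hY.pow 3).add ((hY.pow 2).smul' ?_)).sub (hY.smul' ?_)).add (IsRat.one.smul' ?_)
    · exact ((ha.add hb).sub ((ha.mul hb).add RatR.one)).sub hr
    · exact (((ha.mul hb).add RatR.one).mul (ha.add hb)).add (hr.mul ((ha.add hb).sub ((ha.mul hb).add RatR.one)))
    · exact hr.mul (((ha.mul hb).add RatR.one).mul (ha.add hb))
  · refine RatR.inv ?_
    rw [Hex.cc]
    exact (((RatR.nat 2).mul hr).mul (((hr.pow 2).add hr).add RatR.one)).mul ((ha.add hb).sub hr)

theorem isRat_ee {A p : Matrix X X ℝ} (hA : IsRat A) (hp : IsRat p) {a : ℝ} (ha : RatR a) : IsRat (ee A p a) := by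
  rw [ee_def]
  exact (hp.mul (IsRat.one.add hA)).smul' (RatR.one.add ha).inv

end rat

/-! ### Invariant matrices -/

section inv

variable {G : Type*} [Group G] {X : Type*} [Fintype X] [DecidableEq X] [MulAction G X]

theorem inv_pow {M : Matrix X X ℝ} (hM : Inv G M) (n : ℕ) : Inv G (M ^ n) := by
  induction n with
  | zero => rw [pow_zero]; exact Inv.one
  | succ n ih => rw [pow_succ]; exact ih.mul hM

theorem inv_Y' {A B : Matrix X X ℝ} (hA : Inv G A) (hB : Inv G B) (a b : ℝ) : Inv G (Y A B a b) := by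
  rw [Y_def]
  exact ((((hA.mul hB).add (hB.mul hA)).sub (hA.smul _)).sub (hB.smul _)).add (Inv.one.smul _)

theorem inv_hp {A B : Matrix X X ℝ} (hA : Inv G A) (hB : Inv G B) (a b r : ℝ) :
    Inv G (Hex.hp A B a b r) := by
  have hY := inv_Y' hA hB a b
  rw [Hex.hp, Hex.gp_expand, Hex.aeval_cubic]
  exact ((((inv_pow hY 3).add ((inv_pow hY 2).smul _)).sub (hY.smul _)).add (Inv.one.smul _)).smul _

theorem inv_ee {A p : Matrix X X ℝ} (hA : Inv G A) (hp : Inv G p) (a : ℝ) : Inv G (ee A p a) := by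
  rw [ee_def]
  exact (hp.mul (Inv.one.add hA)).smul _

end inv

/-! ### The number of chambers -/

section four

variable {K : Type u} [Group K] [Finite K] {P : Cfsg.BNPair K}
variable [hN : ((P.B ⊓ P.N).subgroupOf P.N).Normal]
variable (e : Fin 2 ≃ P.S) (cs : CoxeterSystem CoxeterMatrix.G₂ (WP P))
  (hcs : ∀ i, cs.simple i = QuotientGroup.mk (⟨(e i : K), P.subset (e i).2⟩ : P.N))

include cs in
omit [Finite K] in
theorem card_WP_G2 : Nat.card (WP P) = 12 := by
  rw [Nat.card_congr cs.mulEquiv.toEquiv]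
  exact Cfsg.Agent.S1092.result (⟨2, CoxeterMatrix.G₂⟩, 12) (by simp)

include hcs in
theorem four_dvd_index_G2 {p : ℕ} [Fact p.Prime] (hp : Odd p) {U : Subgroup K} (S : Split P p U) :
    4 ∣ P.B.index := by
  have hs : ((e 0 : P.S) : K) ∈ P.S := (e 0).2
  have hPJ : PJ P e {0} = P.parabolic {((e 0 : P.S) : K)} := by
    unfold PJ
    rw [Set.image_singleton]
  have h1 : P.B.relIndex (P.parabolic {((e 0 : P.S) : K)}) * (P.parabolic {((e 0 : P.S) : K)}).index = P.B.index :=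
    Subgroup.relIndex_mul_index (B_le_parabolic P _)
  rw [Cfsg.Agent.H580.RankTwo.relIndex_parabolic hs] at h1
  obtain ⟨a, ha⟩ := Cfsg.Agent.H580.RankTwo.q_pow S hs
  have h2 : Even (1 + q P ((e 0 : P.S) : K)) := by
    rw [ha]
    exact odd_one.add_odd hp.pow
  have h3 : Even (P.parabolic {((e 0 : P.S) : K)}).index := by
    rw [← hPJ, Nat.even_iff, index_mod e cs hcs hp S {0}, ← Nat.even_iff]
    have h4 : Nat.card (WJ cs {0}) = 2 := by
      have h5 : WJ cs {0} = Subgroup.zpowers (cs.simple 0) := by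
        unfold WJ
        rw [Set.image_singleton, Subgroup.zpowers_eq_closure]
      rw [h5, Nat.card_zpowers]
      refine orderOf_eq_prime (cs.simple_sq 0) fun h => ?_
      have h6 := cs.length_simple 0
      rw [h, cs.length_one] at h6
      exact absurd h6 (by norm_num)
    have h6 := Subgroup.card_mul_index (WJ cs {0})
    rw [h4, card_WP_G2 cs] at h6
    exact ⟨3, by omega⟩
  rw [← h1]
  exact mul_dvd_mul (even_iff_two_dvd.1 h2) (even_iff_two_dvd.1 h3)

end four

/-! ### The conclusion -/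

section main

variable {G : Type u} [Group G] [Fintype G] {M : Ideal AlgInt} {k : ℕ}
variable (N : Subgroup G) [hNn : N.Normal] [Fintype N] (J : Subgroup G) [hJn : J.Normal]
  {P : Cfsg.BNPair N}
variable [hN : ((P.B ⊓ P.N).subgroupOf P.N).Normal]
variable (e : Fin 2 ≃ P.S) (cs : CoxeterSystem CoxeterMatrix.G₂ (WP P))
  (hcs : ∀ i, cs.simple i = QuotientGroup.mk (⟨(e i : N), P.subset (e i).2⟩ : P.N))

include hcs in
/-- **Type `G₂`, odd characteristic, the types are preserved.** -/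
theorem concl_fix_G2 (hM : IsPModular 2 M) (hNJ : N ≤ J) (hodd : Odd (N.relIndex J))
    (hidx : ∃ j : ℕ, J.index = 2 ^ j) (hk : IsK G k) {p : ℕ} [Fact p.Prime] (hp : Odd p) {U : Subgroup N}
    (S : Split P p U) (hB0 : InB0 (cls P.B))
    (hty : ∀ (g : G) (t : N) (ht : Keep P (MulAut.conj t * MulAut.conjNormal g)) (i : Fin 2),
      sg e cs hcs ht i = i) : Concl M G N k := by
  classical
  have hSt : Stab N P := stab_of_split S
  set s : N := (e 0 : N) with hs_def
  set t : N := (e 1 : N) with ht_def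
  have hs : s ∈ P.S := (e 0).2
  have ht : t ∈ P.S := (e 1).2
  have hS : P.S = {s, t} := by
    ext x
    constructor
    · intro hx
      obtain ⟨i, hi⟩ := e.surjective ⟨x, hx⟩
      have hi' : (e i : N) = x := congrArg Subtype.val hi
      fin_cases i
      · exact Or.inl hi'.symm
      · exact Or.inr hi'.symm
    · rintro (rfl | rfl)
      · exact hs
      · exact ht
  have hst : s ≠ t := by
    intro h
    have h1 : e 0 = e 1 := Subtype.ext h
    exact absurd (e.injective h1) (by decide)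
  have hW : ((P.B ⊓ P.N).subgroupOf P.N).index = 2 * 6 := card_WP_G2 cs
  obtain ⟨hbr, htr⟩ := TC_data (P := P) hS hst hW
  obtain ⟨ea, hea⟩ := Cfsg.Agent.H580.RankTwo.q_pow S hs
  obtain ⟨eb, heb⟩ := Cfsg.Agent.H580.RankTwo.q_pow S ht
  have hao : Odd (q P s) := by rw [hea]; exact hp.pow
  have hbo : Odd (q P t) := by rw [heb]; exact hp.pow
  have ha2 : 2 ≤ q P s := two_le_q hs
  have hb2 : 2 ≤ q P t := two_le_q ht
  have hA := TC_sq (P := P) hs
  have hB := TC_sq (P := P) ht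
  set A : Matrix (Ch N P) (Ch N P) ℝ := TC s with hA_def
  set B : Matrix (Ch N P) (Ch N P) ℝ := TC t with hB_def
  set a : ℕ := q P s with ha_def
  set b : ℕ := q P t with hb_def
  set r : ℝ := Real.sqrt (a * b) with hr_def
  have hab : (0 : ℝ) < (a : ℝ) * b := by
    have h1 : (0 : ℝ) < a := by exact_mod_cast (by omega : 0 < a)
    have h2 : (0 : ℝ) < b := by exact_mod_cast (by omega : 0 < b)
    positivity
  have hr : r ^ 2 = (a : ℝ) * b := Real.sq_sqrt hab.le
  have hr0 : 0 < r := Real.sqrt_pos.2 hab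
  have hbr' : (A * B) ^ 3 = (B * A) ^ 3 := by
    rw [← alt_two_mul, ← alt_two_mul]
    exact hbr
  have hAt : A.trace = 0 := by
    have h1 := (htr 1 (by norm_num) (by norm_num)).1
    rwa [Cfsg.Agent.LieRecognition.FeitHigmanGroup.alt_one] at h1
  have hBt : B.trace = 0 := by
    have h1 := (htr 1 (by norm_num) (by norm_num)).2
    rwa [Cfsg.Agent.LieRecognition.FeitHigmanGroup.alt_one] at h1
  have hABt : ∀ k, 1 ≤ k → k ≤ 3 → ((A * B) ^ k).trace = 0 := by
    intro k h1 h2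
    rw [← alt_two_mul]
    exact (htr (2 * k) (by omega) (by omega)).1
  have hrlt : r < a + b := by
    have h1 : (0 : ℝ) < a := by exact_mod_cast (by omega : 0 < a)
    have h2 : (0 : ℝ) < b := by exact_mod_cast (by omega : 0 < b)
    nlinarith [hr, hr0]
  have hc : Hex.cc (a : ℝ) b r ≠ 0 := by
    have h1 : 0 < (a : ℝ) + b - r := by linarith
    rw [Hex.cc]
    positivity
  have hcard : (1 : Matrix (Ch N P) (Ch N P) ℝ).trace = (P.B.index : ℝ) := by
    rw [Matrix.trace_one]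
    have h1 : Fintype.card (Ch N P) = P.B.index := by
      rw [← Nat.card_eq_fintype_card]
      rfl
    rw [h1]
  have htrace := Hex.trace_hp hA hB hr hABt hAt hBt hcard hc
  set h : Matrix (Ch N P) (Ch N P) ℝ := Hex.hp A B (a : ℝ) b r with hh_def
  have ha1 : (1 : ℝ) + a ≠ 0 := by positivity
  have hpA := Hex.hp_comm (B := B) (b := (b : ℝ)) (r := r) hA
  have hpp := Hex.hp_sq hA hB hbr' hr hc
  have hY := Hex.Y_hp hA hB hbr' hr
  rw [← hh_def] at hpA hpp hY
  set E : Matrix (Ch N P) (Ch N P) ℝ := ee A h (a : ℝ) with hE_def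
  have hEE : E * E = E := ee_sq hA ha1 hpA hpp
  obtain ⟨d, hd⟩ := trace_idem E hEE
  have htrE : E.trace * (1 + a) = h.trace + (h * A).trace := by
    have h9 : h * (1 + A) = h + h * A := by rw [mul_add, mul_one]
    rw [hE_def, ee_def, h9, Matrix.trace_smul, Matrix.trace_add, smul_eq_mul]
    field_simp
  have hkey : 2 * (r ^ 2 + r + 1) * (a + b - r) * d = r ^ 2 * (P.B.index : ℕ) := by
    rw [← htrE, hd] at htrace
    rw [Hex.cc] at htrace
    have h1 : (r * (1 + (a : ℝ))) * (2 * (r ^ 2 + r + 1) * (a + b - r) * d) =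
        (r * (1 + (a : ℝ))) * (r ^ 2 * (P.B.index : ℕ)) := by
      linarith [htrace]
    exact mul_left_cancel₀ (by positivity) h1
  have hidx0 : 0 < P.B.index := Nat.pos_of_ne_zero Subgroup.index_ne_zero_of_finite
  obtain ⟨⟨m, hm⟩, hde, hd0⟩ := hex_arith hao hbo ha2 hb2 hr0 hr (four_dvd_index_G2 e cs hcs hp S) hidx0 hkey
  have hratr : RatR r := by
    rw [hm]
    exact RatR.nat m
  have hinvT : ∀ i : Fin 2, (letI := chAct hSt; Inv G (TC ((e i : P.S) : N) : Matrix (Ch N P) (Ch N P) ℝ)) := by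
    intro i
    letI := chAct hSt
    intro g x y
    obtain ⟨t', ht'⟩ := exists_conj_keep S (MulAut.conjNormal g : MulAut N)
    have h1 := T_smul e cs hcs hSt g ht' i x y
    rw [hty g t' ht' i] at h1
    exact h1
  refine concl_of_hecke J hM hNJ hodd hidx hk hSt hS (e := E) (α := a)
    (c₁ := -r + b - 1) (c₂ := -1) (c₃ := (-r + b - 1) / (1 + a)) ?_ ?_ hEE ?_ ?_ ?_ hd hde hd0 hB0
  · letI := chAct hSt
    exact inv_ee (hinvT 0) (inv_hp (hinvT 0) (hinvT 1) _ _ _) _
  · exact isRat_ee (isRat_TC s) (isRat_hp (isRat_TC s) (isRat_TC t) (RatR.nat a) (RatR.nat b) hratr) (RatR.nat a)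
  · exact A_ee hA hpA
  · exact A_B_ee hA hY hpA
  · exact ee_B_ee hA ha1 hY hpA hpp

end main

end Cfsg.Agent.H610.EB
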