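import Cfsg.Agent.H610.EB.RPhi
import Cfsg.Agent.H740.Eight.Hecke

/-!
# Framework F: characters from idempotent matrices invariant under the overgroup

`X` is a finite `G`-set, `N` a normal subgroup of `G`, `e` a `G`-invariant idempotent matrix over
`X` which is primitive among the `N`-invariant matrices. Then `g ↦ tr (e g)` is an irreducible
character of `G` whose restriction to `N` is irreducible.

* `ic e g = ∑ x, e x (g • x)`: the character.
* `idem_char`: it is an irreducible character (if `e` is primitive for `G`).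
* `concl_of_idem`: the conclusion of S4522 (and the version with an odd normal step).
-/

set_option autoImplicit false
set_option linter.unusedSectionVars false
set_option linter.style.haveILetI false

namespace Cfsg.Agent.H610.EB

open Cfsg Cfsg.Agent.Characters Cfsg.Agent.H694 Cfsg.Agent.H684.EB
open scoped ComplexConjugate
open Cfsg.Agent.Characters.Core
open Cfsg.Agent.OddOrderCharacters.NormalInduced (conjFn)
open Cfsg.Agent.OddOrderCharacters.PF9.CliffGen (resTo irr_ind)
open Cfsg.Agent.Blocks.Local Cfsg.Agent.Blocks.Basic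
open Cfsg.Agent.H740.Eight.Hecke (Inv perm perm_apply perm_comm inv_of_comm irreducible_of_scalar)

universe u v

section idem

variable {G : Type*} [Group G] {X : Type*} [MulAction G X] [Fintype X] [DecidableEq X]

/-- The trace function of a matrix. -/
def ic (G : Type*) [Group G] {X : Type*} [MulAction G X] [Fintype X] (e : Matrix X X ℂ) (g : G) : ℂ :=
  ∑ x, e x (g • x)

theorem ic_one (e : Matrix X X ℂ) : ic G e 1 = e.trace := by
  unfold ic Matrix.trace
  simp only [one_smul, Matrix.diag_apply]

theorem ic_sub (e f : Matrix X X ℂ) (g : G) : ic G (e - f) g = ic G e g - ic G f g := by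
  unfold ic
  rw [← Finset.sum_sub_distrib]
  rfl

theorem ic_id (g : G) : ic G (1 : Matrix X X ℂ) g = (Nat.card {x : X // g • x = x} : ℂ) := by
  classical
  unfold ic
  have h1 : ∀ x : X, (1 : Matrix X X ℂ) x (g • x) = if g • x = x then 1 else 0 := by
    intro x
    rw [Matrix.one_apply]
    simp only [eq_comm]
  rw [Finset.sum_congr rfl fun x _ => h1 x, Finset.sum_boole, Nat.card_eq_fintype_card,
    Fintype.card_subtype]

/-- The representation on the range of an invariant idempotent. -/
theorem exists_rep {e : Matrix X X ℂ} (hinv : Inv G e) (he : e * e = e) :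
    ∃ (W : Submodule ℂ (X → ℂ)) (ρ : Representation ℂ G W), (∀ g, ρ.character g = ic G e g) ∧
      W = LinearMap.range (Matrix.toLin' e) ∧ ∀ g (v : W), ((ρ g v : W) : X → ℂ) = perm G X g v := by
  set E := Matrix.toLin' e with hE
  have hEE : ∀ v, E (E v) = E v := fun v => by
    have h1 : E ∘ₗ E = E := by rw [hE, ← Matrix.toLin'_mul, he]
    exact LinearMap.congr_fun h1 v
  set W := LinearMap.range E with hW
  have hWE : ∀ v ∈ W, E v = v := by
    rintro _ ⟨v, rfl⟩
    exact hEE v
  have hWinv : ∀ g, ∀ v ∈ W, perm G X g v ∈ W := by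
    intro g v hv
    refine ⟨perm G X g v, ?_⟩
    rw [hE, perm_comm hinv, ← hE, hWE v hv]
  let ρ : Representation ℂ G W :=
    { toFun := fun g => (perm G X g).restrict (hWinv g)
      map_one' := by
        refine LinearMap.ext fun v => Subtype.ext ?_
        show perm G X 1 (v : X → ℂ) = v
        rw [map_one]; rfl
      map_mul' := fun g h => by
        refine LinearMap.ext fun v => Subtype.ext ?_
        show perm G X (g * h) (v : X → ℂ) = perm G X g (perm G X h v)
        rw [map_mul]; rfl }
  have hρ : ∀ g (v : W), ((ρ g v : W) : X → ℂ) = perm G X g v := fun g v => rfl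
  refine ⟨W, ρ, ?_, rfl, hρ⟩
  intro g
  -- the trace of `perm g ∘ E`
  have h1 : LinearMap.trace ℂ _ (perm G X g ∘ₗ E) = ic G e g := by
    have h2 : LinearMap.toMatrix' (perm G X g ∘ₗ E) = Matrix.of fun x y => e (g⁻¹ • x) y := by
      ext x y
      rw [LinearMap.toMatrix'_apply, Matrix.of_apply]
      show perm G X g (E (Pi.single y 1)) x = _
      rw [perm_apply, hE, Matrix.toLin'_apply, Matrix.mulVec_single_one]
      rfl
    rw [LinearMap.trace_eq_matrix_trace ℂ (Pi.basisFun ℂ X), LinearMap.toMatrix_eq_toMatrix', h2]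
    unfold Matrix.trace ic
    refine Finset.sum_congr rfl fun x _ => ?_
    rw [Matrix.diag_apply, Matrix.of_apply, ← hinv g (g⁻¹ • x) x, smul_inv_smul]
  rw [← h1]
  show LinearMap.trace ℂ _ (ρ g) = _
  -- the range of `perm g ∘ E` is in `W`
  have h3 : ρ g = (perm G X g ∘ₗ E).restrict (p := W) (q := W) (fun v hv => by
      show perm G X g (E v) ∈ W
      rw [hWE v hv]
      exact hWinv g v hv) := by
    refine LinearMap.ext fun v => Subtype.ext ?_
    show perm G X g (v : X → ℂ) = perm G X g (E v)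
    rw [hWE v v.2]
  rw [h3]
  exact LinearMap.trace_restrict_eq_of_forall_mem W (perm G X g ∘ₗ E) (fun v => by
    show perm G X g (E v) ∈ W
    exact hWinv g _ ⟨v, rfl⟩)

theorem ic_isCharacter [Finite G] {e : Matrix X X ℂ} (hinv : Inv G e) (he : e * e = e) :
    IsCharacter G (ic G e) := by
  obtain ⟨W, ρ, h1, -, -⟩ := exists_rep hinv he
  have h2 : ρ.character = ic G e := funext h1
  rw [← h2]
  exact isCharacter_of_rep ρ

/-- **A primitive idempotent gives an irreducible character.** -/
theorem ic_irr [Finite G] {e : Matrix X X ℂ} (hinv : Inv G e) (he : e * e = e) (hne : e ≠ 0)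
    (hprim : ∀ M : Matrix X X ℂ, Inv G M → ∃ c : ℂ, e * M * e = c • e) :
    IsIrrCharacter G (ic G e) := by
  obtain ⟨W, ρ, h1, hW, hρ⟩ := exists_rep hinv he
  have h2 : ρ.character = ic G e := funext h1
  rw [← h2]
  apply isIrrCharacter_of_rep
  subst hW
  set E := Matrix.toLin' e with hE
  have hEE : ∀ v, E (E v) = E v := fun v => by
    have h1 : E ∘ₗ E = E := by rw [hE, ← Matrix.toLin'_mul, he]
    exact LinearMap.congr_fun h1 v
  have hWE : ∀ v ∈ LinearMap.range E, E v = v := by
    rintro _ ⟨v, rfl⟩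
    exact hEE v
  have hnt : Nontrivial (LinearMap.range E) := by
    rw [Submodule.nontrivial_iff_ne_bot]
    intro h
    apply hne
    have h1 : E = 0 := LinearMap.range_eq_bot.1 h
    rw [hE] at h1
    exact (LinearEquiv.map_eq_zero_iff _).1 h1
  apply irreducible_of_scalar
  intro f hf
  set L : (X → ℂ) →ₗ[ℂ] (X → ℂ) := (LinearMap.range E).subtype ∘ₗ f ∘ₗ E.rangeRestrict with hL
  have hLa : ∀ v, L v = (f (E.rangeRestrict v) : X → ℂ) := fun v => rfl
  have hLc : ∀ (g : G) v, L (perm G X g v) = perm G X g (L v) := by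
    intro g v
    rw [hLa, hLa, ← hρ, ← hf]
    congr 2
    apply Subtype.ext
    rw [hρ]
    show E (perm G X g v) = perm G X g (E v)
    rw [hE, perm_comm hinv]
  obtain ⟨c, hc⟩ := hprim _ (inv_of_comm hLc)
  have h1 : ∀ v, E (L (E v)) = c • E v := by
    intro v
    have h2 := congrArg Matrix.toLin' hc
    rw [Matrix.toLin'_mul, Matrix.toLin'_mul, Matrix.toLin'_toMatrix', map_smul] at h2
    exact LinearMap.congr_fun h2 v
  refine ⟨c, fun w => Subtype.ext ?_⟩
  have h3 := h1 (w : X → ℂ)
  have h4 : E.rangeRestrict (w : X → ℂ) = w := Subtype.ext (hWE _ w.2)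
  rw [hWE _ w.2, hLa, h4, hWE _ (f w).2] at h3
  exact h3

/-- Invariance under a subgroup. -/
theorem Inv.sub' {R : Type*} {e : Matrix X X R} (hinv : Inv G e) (N : Subgroup G) : Inv N e :=
  fun n x y => hinv (n : G) x y

end idem

/-! ### Power-fixed -/

section rational

variable {G : Type*} [Group G] [Finite G] {X : Type*} [MulAction G X] [Fintype X]
  [DecidableEq X]

/-- The character of an idempotent whose entries are fixed by the Galois automorphisms with
exponent `k` is power-fixed. -/
theorem ic_pow {e : Matrix X X ℂ} (hc : IsCharacter G (ic G e)) {k : ℕ}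
    (hk : Nat.Coprime k (Nat.card G))
    (hfix : ∀ σ : ℂ ≃+* ℂ, (∀ z : ℂ, z ^ Nat.card G = 1 → σ z = z ^ k) →
      ∀ x y, σ (e x y) = e x y) (g : G) : ic G e (g ^ k) = ic G e g := by
  obtain ⟨σ, hσ⟩ := Cfsg.Agent.Characters.GaloisBasic.exists_ringEquiv_pow
    (n := Nat.card G) (m := k) Nat.card_pos.ne' hk
  rw [← Cfsg.Agent.Characters.GaloisBasic.map_apply_card σ hσ hc g]
  unfold ic
  rw [map_sum]
  exact Finset.sum_congr rfl fun x _ => hfix σ hσ x _

/-- **Rational idempotents give power-fixed characters.** -/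
theorem ic_pow_of_rat {e : Matrix X X ℂ} (hc : IsCharacter G (ic G e)) (e₀ : Matrix X X ℚ)
    (hrat : ∀ x y, e x y = (e₀ x y : ℂ)) {k : ℕ} (hk : Nat.Coprime k (Nat.card G)) (g : G) :
    ic G e (g ^ k) = ic G e g :=
  ic_pow hc hk (fun σ _ x y => by rw [hrat, map_ratCast]) g

end rational

/-! ### The conclusion -/

section concl

variable {G : Type u} [Group G] [Fintype G] {M : Ideal AlgInt} {k : ℕ} {X : Type v}
  [MulAction G X] [Fintype X] [DecidableEq X]

/-- The character of an idempotent is a constituent of the permutation character. -/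
theorem mu_ic_ne_zero {e : Matrix X X ℂ} (hinv : Inv G e) (he : e * e = e)
    (hirr : IsIrrCharacter G (ic G e)) :
    mu (fun g : G => (Nat.card {x : X // g • x = x} : ℂ)) (ic G e) ≠ 0 := by
  have h1 : IsCharacter G (ic G (1 - e)) := by
    refine ic_isCharacter (Inv.sub Inv.one hinv) ?_
    rw [sub_mul, mul_sub, mul_sub, he]
    simp
  obtain ⟨n, hn⟩ := classInner_isNat h1 (isIrr_isCharacter hirr)
  have h2 : (fun g : G => (Nat.card {x : X // g • x = x} : ℂ)) = ic G (1 - e) + ic G e := by
    funext g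
    rw [Pi.add_apply, ic_sub, ic_id]
    ring
  have h3 : classInner (fun g : G => (Nat.card {x : X // g • x = x} : ℂ)) (ic G e) =
      ((n + 1 : ℕ) : ℂ) := by
    rw [h2, classInner_add_left, hn, classInner_irr_self hirr]
    push_cast
    rfl
  have h4 : mu (fun g : G => (Nat.card {x : X // g • x = x} : ℂ)) (ic G e) = ((n + 1 : ℕ) : ℤ) :=
    mu_eq (by rw [h3]; push_cast; rfl)
  rw [h4]
  exact_mod_cast Nat.succ_ne_zero n

/-- **Framework F.** The conclusion of S4522 from an invariant idempotent. -/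
theorem concl_of_idem (hM : IsPModular 2 M) (N : Subgroup G) [hN : N.Normal] [Fintype N]
    (J : Subgroup G) [hJ : J.Normal] (hNJ : N ≤ J) (hodd : Odd (N.relIndex J))
    (hidx : ∃ j : ℕ, J.index = 2 ^ j) (hk : IsK G k) {e : Matrix X X ℂ} (hinv : Inv G e)
    (he : e * e = e) (hprim : ∀ M : Matrix X X ℂ, Inv N M → ∃ c : ℂ, e * M * e = c • e)
    {d : ℕ} (htr : e.trace = d) (hd : Even d) (hd0 : d ≠ 0)
    (hfix : ∀ g : G, ic G e (g ^ k) = ic G e g)
    (hmem : ∀ φ : IrrCharacter N, (φ : N → ℂ) = ic N e → φ ∈ principalBlock M N) :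
    Concl M G N k := by
  classical
  haveI : Fact (Nat.Prime 2) := ⟨Nat.prime_two⟩
  haveI : Fintype J := Fintype.ofFinite _
  haveI : Fintype (N.subgroupOf J) := Fintype.ofFinite _
  have hne : e ≠ 0 := by
    rintro rfl
    rw [Matrix.trace_zero] at htr
    exact hd0 (by exact_mod_cast htr.symm)
  have hN' : IsIrrCharacter N (ic N e) := ic_irr (Inv.sub' hinv N) he hne hprim
  have hJ' : IsIrrCharacter J (ic J e) := ic_irr (Inv.sub' hinv J) he hne
    (fun M hM => hprim M fun n x y => hM ⟨n, hNJ n.2⟩ x y)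
  have hG' : IsIrrCharacter G (ic G e) := ic_irr hinv he hne
    (fun M hM => hprim M fun n x y => hM (n : G) x y)
  have hdeg : ∀ {H : Type u} [Group H] [Finite H] [MulAction H X] (h : IsIrrCharacter H (ic H e)),
      charDegree (ic H e) = d := by
    intro H _ _ _ h
    have h1 := Cfsg.Agent.Blocks.Basic.irr_one_eq_charDegree h
    rw [ic_one, htr] at h1
    exact_mod_cast h1.symm
  -- `J`
  have hJN : classInner (fun n : N.subgroupOf J => ic J e n)
      (H611.EB.dnIrr N J hNJ ⟨ic N e, hN'⟩ : N.subgroupOf J → ℂ) ≠ 0 := by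
    have h1 : (fun n : N.subgroupOf J => ic J e n) =
        (H611.EB.dnIrr N J hNJ ⟨ic N e, hN'⟩ : N.subgroupOf J → ℂ) := rfl
    rw [h1, classInner_irr_self (H611.EB.dnIrr N J hNJ ⟨ic N e, hN'⟩).2]
    exact one_ne_zero
  have hover : classInner (resTo hNJ (ic J e)) (ic N e) ≠ 0 := by
    have h1 : resTo hNJ (ic J e) = ic N e := rfl
    rw [h1, classInner_irr_self hN']
    exact one_ne_zero
  have hJk : ∀ g : J, ic J e (g ^ k) = ic J e g := fun g => by
    have h1 := hfix (g : G)
    have h2 : ic J e (g ^ k) = ic G e (((g ^ k : J) : G)) := rfl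
    rw [h2, Subgroup.coe_pow, h1]
    rfl
  obtain ⟨hm, -, -⟩ := H611.EB.chain_facts N J hNJ hM hodd hk ⟨ic J e, hJ'⟩ ⟨ic N e, hN'⟩ hJk hover
  have hJmem := hm.2 (hmem ⟨ic N e, hN'⟩ rfl)
  have hGJ : classInner (fun n : J => ic G e n) (ic J e) ≠ 0 := by
    have h1 : (fun n : J => ic G e n) = ic J e := rfl
    rw [h1, classInner_irr_self hJ']
    exact one_ne_zero
  refine ⟨⟨ic G e, hG'⟩, mem_of_over hM J hidx (φ := ⟨ic J e, hJ'⟩) hJmem hGJ, ?_, hfix, ?_⟩
  · show Even (charDegree (ic G e))
    rw [hdeg hG']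
    exact hd
  · show classInner (fun n : N => ic G e n) (fun _ => (1 : ℂ)) = 0
    have h1 : (fun n : N => ic G e n) = ic N e := rfl
    rw [h1]
    apply classInner_irr_ne hN' isIrrCharacter_one
    apply ne_one_of_even
    rw [hdeg hN']
    exact hd

end concl

end Cfsg.Agent.H610.EB
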