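import Mathlib
import Cfsg.Agent.H610.EB.HexG
import Cfsg.Agent.H24.EB.TypeA
import Cfsg.Agent.H24.EB.EvenA
import Cfsg.Agent.Nodes.CardSup
import Cfsg.Agent.KFacts.RgdFixU

/-!
# `EvenJ` for `PSL₃(q)`, `q ≡ 1` modulo four

`A² = (q-1)A + q`, `B² = (q-1)B + q`, `ABA = BAB`, `r² = q`, `X = A + B - (q-1)` in the Hecke algebra of type `A₂`.
On the two-dimensional representation `X² = q`; `Tri.te` is the projection on the eigenvalue `r` of `X`. It is
primitive and symmetric in `A`, `B`, so it is invariant under all automorphisms of `PSL₃(q)`, and its trace is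
`q² + q`. `√q` is fixed by the Galois automorphisms which invert the roots of unity of order `p` (Gauss sums).

* `sqrt_fix`: `√q` is fixed.
* `concl_A2`: the conclusion of S4522 for groups with a split (B,N)-pair of type `A₂`, `q ≡ 1` modulo four.
* `evenJ_psl3_one`: the row.
-/

set_option autoImplicit false
set_option linter.unusedSectionVars false
set_option linter.style.haveILetI false

namespace Cfsg.Agent.H610.EB.Tri

section alg

variable {M : Type*} [Ring M] [Algebra ℝ M] {A B : M} {q r : ℝ}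

/-- the element `X` -/
noncomputable def xx (A B : M) (q : ℝ) : M := A + B - (q - 1) • (1 : M)

theorem xx_def (A B : M) (q : ℝ) : xx A B q = A + B - (q - 1) • (1 : M) := rfl

/-- the multiple of the idempotent -/
noncomputable def t0 (A B : M) (q r : ℝ) : M :=
  ((q + 1) ^ 2 • (1 : M) - xx A B q * xx A B q) * (xx A B q + r • (1 : M))

/-- the idempotent -/
noncomputable def te (A B : M) (q r : ℝ) : M := (2 * r * (q ^ 2 + q + 1))⁻¹ • t0 A B q r

theorem te_def (A B : M) (q r : ℝ) : te A B q r = (2 * r * (q ^ 2 + q + 1))⁻¹ • t0 A B q r := rfl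

variable (hA : A * A = (q - 1) • A + q • (1 : M)) (hB : B * B = (q - 1) • B + q • (1 : M))
  (hbr : A * (B * A) = B * (A * B))

include hA hB

theorem X2 : xx A B q * xx A B q =
    A * B + B * A - (q - 1) • A - (q - 1) • B + (q ^ 2 + 1) • (1 : M) := by
  rw [xx_def]
  simp only [mul_add, mul_sub, add_mul, sub_mul, smul_mul_assoc, mul_smul_comm, one_mul, mul_one, hA, hB]
  module

/-- `XA + AX = X² + (q-1)X` -/
theorem XA : xx A B q * A + A * xx A B q = xx A B q * xx A B q + (q - 1) • xx A B q := by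
  rw [X2 hA hB, xx_def]
  simp only [mul_add, mul_sub, add_mul, sub_mul, smul_mul_assoc, mul_smul_comm, one_mul, mul_one, hA]
  module

include hbr

theorem X3 : xx A B q * (xx A B q * xx A B q) =
    (2 : ℝ) • (A * (B * A)) - (q - 1) • (A * B) - (q - 1) • (B * A) + (q ^ 2 + q + 1) • A +
      (q ^ 2 + q + 1) • B - ((q - 1) * (q + 1) ^ 2) • (1 : M) := by
  have h1 : A * (A * B) = (q - 1) • (A * B) + q • B := by
    rw [← mul_assoc, hA, add_mul, smul_mul_assoc, smul_mul_assoc, one_mul]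
  have h2 : B * (B * A) = (q - 1) • (B * A) + q • A := by
    rw [← mul_assoc, hB, add_mul, smul_mul_assoc, smul_mul_assoc, one_mul]
  rw [X2 hA hB, xx_def]
  simp only [mul_add, mul_sub, add_mul, sub_mul, smul_mul_assoc, mul_smul_comm, one_mul, mul_one, hA, hB,
    h1, h2, ← hbr]
  module

theorem X4 : xx A B q * (xx A B q * (xx A B q * xx A B q)) =
    ((q + 1) ^ 2 + q) • (xx A B q * xx A B q) - (q * (q + 1) ^ 2) • (1 : M) := by
  have h1 : A * (A * B) = (q - 1) • (A * B) + q • B := by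
    rw [← mul_assoc, hA, add_mul, smul_mul_assoc, smul_mul_assoc, one_mul]
  have h2 : B * (B * A) = (q - 1) • (B * A) + q • A := by
    rw [← mul_assoc, hB, add_mul, smul_mul_assoc, smul_mul_assoc, one_mul]
  have h3 : A * (A * (B * A)) = (q - 1) • (A * (B * A)) + q • (B * A) := by
    rw [← mul_assoc, hA, add_mul, smul_mul_assoc, smul_mul_assoc, one_mul]
  have h4 : B * (A * (B * A)) = (q - 1) • (A * (B * A)) + q • (A * B) := by
    rw [hbr, ← mul_assoc, hB, add_mul, smul_mul_assoc, smul_mul_assoc, one_mul]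
  rw [X3 hA hB hbr, X2 hA hB, xx_def]
  simp only [mul_add, mul_sub, add_mul, sub_mul, smul_mul_assoc, mul_smul_comm, one_mul, mul_one, hA, hB,
    h1, h2, h3, h4, ← hbr]
  module

variable (hr : r ^ 2 = q)

include hr

theorem X_t0 : xx A B q * t0 A B q r = r • t0 A B q r := by
  have h4 := X4 hA hB hbr
  rw [t0]
  set X := xx A B q with hX
  simp only [mul_add, mul_sub, sub_mul, smul_mul_assoc, mul_smul_comm, one_mul, mul_one, mul_assoc]
  rw [h4]
  match_scalars
  · linear_combination hr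
  · linear_combination (-(q + 1) ^ 2) * hr
  · ring
  · ring

theorem t0_X : t0 A B q r * xx A B q = r • t0 A B q r := by
  rw [← X_t0 hA hB hbr hr, t0]
  set X := xx A B q with hX
  simp only [mul_add, mul_sub, sub_mul, add_mul, smul_mul_assoc, mul_smul_comm, one_mul, mul_one, mul_assoc]

theorem t0_sq : t0 A B q r * t0 A B q r = (2 * r * (q ^ 2 + q + 1)) • t0 A B q r := by
  have h1 := X_t0 hA hB hbr hr
  nth_rw 1 [t0]
  set E := t0 A B q r with hE
  set X := xx A B q with hX
  have h2 : (X + r • (1 : M)) * E = (2 * r) • E := by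
    rw [add_mul, smul_mul_assoc, one_mul, h1]
    module
  rw [mul_assoc, h2, mul_smul_comm, sub_mul, smul_mul_assoc, one_mul, mul_assoc, h1, mul_smul_comm, h1]
  match_scalars
  linear_combination (-2 * r) * hr

variable (hc : 2 * r * (q ^ 2 + q + 1) ≠ 0)

theorem X_te : xx A B q * te A B q r = r • te A B q r := by
  rw [te_def, mul_smul_comm, X_t0 hA hB hbr hr, smul_comm]

theorem te_X : te A B q r * xx A B q = r • te A B q r := by
  rw [te_def, smul_mul_assoc, t0_X hA hB hbr hr, smul_comm]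

include hc in
theorem te_sq : te A B q r * te A B q r = te A B q r := by
  rw [te_def, mul_smul_comm, smul_mul_assoc, t0_sq hA hB hbr hr, smul_smul _ (2 * r * (q ^ 2 + q + 1)),
    inv_mul_cancel₀ hc, one_smul]

/-- `B` on the ideal -/
theorem B_te : B * te A B q r = (r + q - 1) • te A B q r - A * te A B q r := by
  have h1 := X_te hA hB hbr hr
  have h2 : B = xx A B q - A + (q - 1) • (1 : M) := by rw [xx_def]; abel
  nth_rw 1 [h2]
  rw [add_mul, sub_mul, h1, smul_mul_assoc, one_mul]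
  module

theorem XA_te : xx A B q * (A * te A B q r) = (q + (q - 1) * r) • te A B q r - r • (A * te A B q r) := by
  have h1 := X_te hA hB hbr hr
  have h2 := congrArg (fun y => y * te A B q r) (XA (q := q) hA hB)
  simp only [add_mul, mul_assoc, h1, mul_smul_comm, smul_mul_assoc] at h2
  rw [← eq_sub_iff_add_eq] at h2
  rw [h2]
  match_scalars
  · linear_combination hr
  · ring

theorem BA_te : B * (A * te A B q r) = ((q - 1) * r) • te A B q r - r • (A * te A B q r) := by
  have h1 := XA_te hA hB hbr hr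
  have h2 : B = xx A B q - A + (q - 1) • (1 : M) := by rw [xx_def]; abel
  nth_rw 1 [h2]
  have h3 : A * (A * te A B q r) = (q - 1) • (A * te A B q r) + q • te A B q r := by
    rw [← mul_assoc, hA, add_mul, smul_mul_assoc, smul_mul_assoc, one_mul]
  rw [add_mul, sub_mul, h1, h3, smul_mul_assoc, one_mul]
  module

include hc in
theorem te_A_te (hr0 : r ≠ 0) : te A B q r * (A * te A B q r) = ((r + q - 1) / 2) • te A B q r := by
  have h1 := congrArg (fun y => te A B q r * y) (XA_te hA hB hbr hr)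
  simp only [mul_sub, mul_smul_comm, te_sq hA hB hbr hr hc] at h1
  rw [← mul_assoc, te_X hA hB hbr hr, smul_mul_assoc] at h1
  have h2 : (2 * r) • (te A B q r * (A * te A B q r)) = (q + (q - 1) * r) • te A B q r := by
    rw [two_mul, add_smul]
    nth_rw 1 [h1]
    abel
  have h3 : te A B q r * (A * te A B q r) = (2 * r)⁻¹ • ((q + (q - 1) * r) • te A B q r) := by
    rw [← h2, smul_smul, inv_mul_cancel₀ (by positivity), one_smul]
  rw [h3, smul_smul]
  congr 1
  field_simp
  linear_combination (-1 : ℝ) * hr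

end alg

section trace

variable {X : Type*} [Fintype X] [DecidableEq X] {A B : Matrix X X ℝ} {q r : ℝ}

/-- **The trace.** -/
theorem trace_te (hA : A * A = (q - 1) • A + q • (1 : Matrix X X ℝ)) (hB : B * B = (q - 1) • B + q • (1 : Matrix X X ℝ))
    (hbr : A * (B * A) = B * (A * B)) (hAt : A.trace = 0) (hBt : B.trace = 0) (hAB : (A * B).trace = 0)
    (hABA : (A * (B * A)).trace = 0) {n : ℝ} (hn : (1 : Matrix X X ℝ).trace = n)
    (hc : 2 * r * (q ^ 2 + q + 1) ≠ 0) : (te A B q r).trace * (q ^ 2 + q + 1) = q * n := by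
  have hBA : (B * A).trace = 0 := by rw [Matrix.trace_mul_comm]; exact hAB
  have h1 : (xx A B q).trace = -(q - 1) * n := by
    rw [xx_def, Matrix.trace_sub, Matrix.trace_add, Matrix.trace_smul, hAt, hBt, hn, smul_eq_mul]
    ring
  have h2 : (xx A B q * xx A B q).trace = (q ^ 2 + 1) * n := by
    rw [X2 hA hB]
    simp only [Matrix.trace_add, Matrix.trace_sub, Matrix.trace_smul, hAt, hBt, hAB, hBA, hn, smul_eq_mul]
    ring
  have h3 : (xx A B q * (xx A B q * xx A B q)).trace = -((q - 1) * (q + 1) ^ 2) * n := by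
    rw [X3 hA hB hbr]
    simp only [Matrix.trace_add, Matrix.trace_sub, Matrix.trace_smul, hAt, hBt, hAB, hBA, hABA, hn, smul_eq_mul]
    ring
  have h4 : (t0 A B q r).trace = (2 * r) * (q * n) := by
    rw [t0]
    simp only [mul_add, sub_mul, smul_mul_assoc, mul_smul_comm, one_mul, mul_one, Matrix.trace_add,
      Matrix.trace_sub, Matrix.trace_smul, smul_eq_mul, mul_assoc, h1, h2, h3, hn]
    ring
  have h5 : (2 * r * (q ^ 2 + q + 1)) * (te A B q r).trace = (2 * r) * (q * n) := by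
    rw [te_def, Matrix.trace_smul, smul_eq_mul, ← mul_assoc, mul_inv_cancel₀ hc, one_mul, h4]
  have h6 : 2 * r ≠ 0 := left_ne_zero_of_mul hc
  apply mul_left_cancel₀ h6
  linear_combination h5

end trace

end Cfsg.Agent.H610.EB.Tri

namespace Cfsg.Agent.H610.EB

open Cfsg Cfsg.Agent.H694 Cfsg.Agent.H694.EB
open scoped ComplexConjugate
open Cfsg.Agent.Characters.Core
open Cfsg.Agent.LieExceptional.BNPairCore Cfsg.Agent.Tits.Core Cfsg.Agent.Tits.Core.Bldg
  Cfsg.Agent.Tits.OfBN Cfsg.Agent.Schreier.BNSch Cfsg.Agent.Tits.OppRes Cfsg.Agent.FixBN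
  Cfsg.Agent.FixBN.TwOfBN Cfsg.Agent.OddHalf.Table.AutBldg
open Cfsg.Agent.LieRecognition.FeitHigmanGroup (R T T_apply R_mk_iff q T_sq alt two_le_q)
open Cfsg.Agent.H740.Eight.Hecke (Inv mem_span T_mul_mem Tc)
open Cfsg.Agent.LieRecognition.BNCox (cA)
open Cfsg.Agent.LieRecognition.FeitHigmanMatrix (trace_idem)
open Cfsg.Agent.Schreier.BNSch (parabolic_empty)

universe u v

/-! ### Gauss sums -/

section gauss

/-- **`√q` is fixed.** -/
theorem sqrt_fix {F : Type*} [Field F] [Fintype F] (h4 : Fintype.card F % 4 = 1) {p : ℕ} [Fact p.Prime]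
    [CharP F p] {n k : ℕ} (hn : p ∣ n) (hk : p ∣ k + 1) (σ : ℂ ≃+* ℂ) (hσ : ∀ z : ℂ, z ^ n = 1 → σ z = z ^ k) :
    σ ((Real.sqrt (Fintype.card F) : ℝ) : ℂ) = ((Real.sqrt (Fintype.card F) : ℝ) : ℂ) := by
  classical
  have hchar : ringChar F ≠ 2 := by
    intro h
    have h1 : ringChar F = p := (ringChar.eq F p)
    have h2 : p ∣ Fintype.card F := by
      obtain ⟨m, -, hm⟩ := FiniteField.card F p
      rw [hm]
      exact dvd_pow_self p m.ne_zero
    rw [← h1, h] at h2
    omega
  set χ : MulChar F ℂ := (quadraticChar F).ringHomComp (Int.castRingHom ℂ) with hχ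
  set ψ : AddChar F ℂ := AddChar.FiniteField.primitiveChar_to_Complex F with hψ
  have hψp : ψ.IsPrimitive := AddChar.FiniteField.primitiveChar_to_Complex_isPrimitive F
  have hχ1 : χ ≠ 1 := by
    have hinj : Function.Injective (Int.castRingHom ℂ) := Int.cast_injective
    exact (MulChar.ringHomComp_ne_one_iff hinj).2 (quadraticChar_ne_one hchar)
  have hχq : χ.IsQuadratic := (quadraticChar_isQuadratic F).comp _
  have hχn : χ (-1) = 1 := by
    have h1 : quadraticChar F (-1) = 1 := by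
      rw [quadraticChar_neg_one hchar]
      have h2 : ((Fintype.card F : ℕ) : ZMod 4) = 1 := by
        have h3 : ((Fintype.card F : ℕ) : ZMod 4) = ((Fintype.card F % 4 : ℕ) : ZMod 4) := by simp
        rw [h3, h4]
        rfl
      rw [h2]
      rfl
    show ((quadraticChar F (-1) : ℤ) : ℂ) = 1
    rw [h1]
    simp
  set g := gaussSum χ ψ with hg
  have hg2 : g ^ 2 = (Fintype.card F : ℂ) := by
    rw [hg, gaussSum_sq hχ1 hχq hψp, hχn, one_mul]
  -- the Galois automorphism fixes the Gauss sum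
  have hψp' : ∀ x : F, σ (ψ x) = ψ (-x) := by
    intro x
    have h1 : ψ x ^ p = 1 := by
      rw [← AddChar.map_nsmul_eq_pow, nsmul_eq_mul, CharP.cast_eq_zero, zero_mul, AddChar.map_zero_eq_one]
    have h2 : ψ x ^ n = 1 := by
      obtain ⟨m, rfl⟩ := hn
      rw [pow_mul, h1, one_pow]
    rw [hσ _ h2]
    have h3 : ψ x ^ k * ψ x = 1 := by
      rw [← pow_succ]
      obtain ⟨m, hm⟩ := hk
      rw [hm, pow_mul, h1, one_pow]
    have h4 : ψ (-x) * ψ x = 1 := by
      rw [← AddChar.map_add_eq_mul, neg_add_cancel, AddChar.map_zero_eq_one]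
    exact mul_right_cancel₀ (right_ne_zero_of_mul_eq_one h4) (h3.trans h4.symm)
  have hσg : σ g = g := by
    have h1 : σ g = ∑ x : F, χ x * ψ (-x) := by
      rw [hg, gaussSum, map_sum]
      refine Finset.sum_congr rfl fun x _ => ?_
      rw [map_mul, hψp']
      congr 1
      show σ ((quadraticChar F x : ℤ) : ℂ) = ((quadraticChar F x : ℤ) : ℂ)
      exact map_intCast σ _
    rw [h1, hg, gaussSum, ← Equiv.sum_comp (Equiv.neg F)]
    refine Finset.sum_congr rfl fun x _ => ?_
    show χ (-x) * ψ (- -x) = χ x * ψ x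
    rw [neg_neg, show -x = -1 * x by ring, map_mul, hχn, one_mul]
  have hs2 : ((Real.sqrt (Fintype.card F) : ℝ) : ℂ) ^ 2 = (Fintype.card F : ℂ) := by
    rw [← Complex.ofReal_pow, Real.sq_sqrt (Nat.cast_nonneg _)]
    simp
  rcases sq_eq_sq_iff_eq_or_eq_neg.1 (hs2.trans hg2.symm) with h | h
  · rw [h, hσg]
  · rw [h, map_neg, hσg]

end gauss

/-! ### Primitive idempotents -/

section prim

variable {K : Type u} [Group K] [Finite K] {P : BNPair K} [Fintype (K ⧸ P.B)] [DecidableEq (K ⧸ P.B)]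

/-- **Primitive idempotents of the Hecke algebra, second version.** -/
theorem prim_of' {s t : K} (hS : P.S = {s, t}) {e : Matrix (K ⧸ P.B) (K ⧸ P.B) ℝ}
    (he : e * e = e) {c₀ c₁ c₂ c₃ c₄ : ℝ} (h1 : T P t * e = c₀ • e + c₁ • (T P s * e))
    (h2 : T P t * (T P s * e) = c₂ • e + c₃ • (T P s * e)) (h3 : e * (T P s * e) = c₄ • e)
    (Mx : Matrix (K ⧸ P.B) (K ⧸ P.B) ℂ) (hM : Inv K Mx) :
    ∃ c : ℂ, e.map Complex.ofReal * Mx * e.map Complex.ofReal = c • e.map Complex.ofReal := by
  classical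
  have hs : s ∈ P.S := by rw [hS]; simp
  set U : Submodule ℝ (Matrix (K ⧸ P.B) (K ⧸ P.B) ℝ) := Submodule.span ℝ {e, T P s * e} with hU
  have heU : e ∈ U := Submodule.subset_span (by simp)
  have hfU : T P s * e ∈ U := Submodule.subset_span (by simp)
  have hA : ∀ x ∈ U, T P s * x ∈ U := by
    intro x hx
    obtain ⟨a, b, rfl⟩ := Submodule.mem_span_pair.1 hx
    rw [mul_add, mul_smul_comm, mul_smul_comm, ← mul_assoc (T P s) (T P s), T_sq hs, add_mul, smul_mul_assoc,
      smul_mul_assoc, one_mul]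
    exact U.add_mem (U.smul_mem _ hfU) (U.smul_mem _ (U.add_mem (U.smul_mem _ hfU) (U.smul_mem _ heU)))
  have hB : ∀ x ∈ U, T P t * x ∈ U := by
    intro x hx
    obtain ⟨a, b, rfl⟩ := Submodule.mem_span_pair.1 hx
    rw [mul_add, mul_smul_comm, mul_smul_comm, h1, h2]
    exact U.add_mem (U.smul_mem _ (U.add_mem (U.smul_mem _ heU) (U.smul_mem _ hfU)))
      (U.smul_mem _ (U.add_mem (U.smul_mem _ heU) (U.smul_mem _ hfU)))
  have hcor : ∀ w : K, ∃ c : ℝ, e * T P w * e = c • e := by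
    intro w
    obtain ⟨a, b, hab⟩ := Submodule.mem_span_pair.1 (T_mul_mem hS U hA hB w heU)
    refine ⟨a + b * c₄, ?_⟩
    rw [mul_assoc, ← hab, mul_add, mul_smul_comm, mul_smul_comm, he, h3, smul_smul, add_smul]
  have hmul : ∀ A B : Matrix (K ⧸ P.B) (K ⧸ P.B) ℝ, (A * B).map Complex.ofReal =
      A.map Complex.ofReal * B.map Complex.ofReal := fun A B => Matrix.map_mul (f := Complex.ofRealHom)
  refine Submodule.span_induction (p := fun M _ => ∃ c : ℂ,
    e.map Complex.ofReal * M * e.map Complex.ofReal = c • e.map Complex.ofReal) ?_ ?_ ?_ ?_ (mem_span hM)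
  · rintro _ ⟨w, rfl⟩
    obtain ⟨c, hc⟩ := hcor w
    refine ⟨c, ?_⟩
    show e.map Complex.ofReal * (T P w).map Complex.ofReal * e.map Complex.ofReal = _
    rw [← hmul, ← hmul, hc]
    ext x y
    simp
  · exact ⟨0, by simp⟩
  · rintro A B _ _ ⟨a, ha⟩ ⟨b, hb⟩
    exact ⟨a + b, by rw [mul_add, add_mul, ha, hb, add_smul]⟩
  · rintro a A _ ⟨b, hb⟩
    exact ⟨a * b, by rw [mul_smul_comm, smul_mul_assoc, hb, smul_smul]⟩

end prim

/-! ### Matrices fixed by a Galois automorphism -/

section fix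

variable {X : Type*} [Fintype X] [DecidableEq X] (σ : ℂ ≃+* ℂ)

/-- The entries are fixed by `σ`. -/
def IsFix (σ : ℂ ≃+* ℂ) {X : Type*} (e : Matrix X X ℝ) : Prop := ∀ x y, σ (e x y : ℂ) = (e x y : ℂ)

variable {σ}

theorem IsRat.isFix {e : Matrix X X ℝ} (he : IsRat e) : IsFix σ e := by
  obtain ⟨e₀, he⟩ := he
  intro x y
  rw [he]
  push_cast
  exact map_ratCast σ _

theorem IsFix.mul {e f : Matrix X X ℝ} (he : IsFix σ e) (hf : IsFix σ f) : IsFix σ (e * f) := by
  intro x y
  rw [Matrix.mul_apply]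
  push_cast
  rw [map_sum]
  exact Finset.sum_congr rfl fun z _ => by rw [map_mul, he, hf]

theorem IsFix.add {e f : Matrix X X ℝ} (he : IsFix σ e) (hf : IsFix σ f) : IsFix σ (e + f) := by
  intro x y
  rw [Matrix.add_apply]
  push_cast
  rw [map_add, he, hf]

theorem IsFix.sub {e f : Matrix X X ℝ} (he : IsFix σ e) (hf : IsFix σ f) : IsFix σ (e - f) := by
  intro x y
  rw [Matrix.sub_apply]
  push_cast
  rw [map_sub, he, hf]

theorem IsFix.smul {e : Matrix X X ℝ} (he : IsFix σ e) {c : ℝ} (hc : σ (c : ℂ) = c) : IsFix σ (c • e) := by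
  intro x y
  rw [Matrix.smul_apply, smul_eq_mul]
  push_cast
  rw [map_mul, he, hc]

theorem IsFix.one : IsFix σ (1 : Matrix X X ℝ) := IsRat.one.isFix

theorem isFix_te {A B : Matrix X X ℝ} (hA : IsFix σ A) (hB : IsFix σ B) {a r : ℝ} (ha : σ (a : ℂ) = a)
    (hr : σ (r : ℂ) = r) : IsFix σ (Tri.te A B a r) := by
  have hx : IsFix σ (Tri.xx A B a) := by
    rw [Tri.xx_def]
    refine (hA.add hB).sub (IsFix.one.smul ?_)
    push_cast
    rw [map_sub, map_one, ha]
  rw [Tri.te_def, Tri.t0]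
  refine IsFix.smul (IsFix.mul ((IsFix.one.smul ?_).sub (hx.mul hx)) (hx.add (IsFix.one.smul hr))) ?_
  · push_cast
    rw [map_pow, map_add, map_one, ha]
  · push_cast
    rw [map_inv₀, map_mul, map_mul, map_add, map_add, map_pow, map_one, ha, hr, map_ofNat]

end fix

/-! ### The Coxeter group -/

theorem card_A2 {W : Type*} [Group W] [Finite W] (cs : CoxeterSystem (cA 2) W) : Nat.card W = 6 := by
  obtain ⟨h1, -⟩ := count cs (Nodes.RootsA.isCartan 2) (c := ![1, 1]) (by decide)
    (![![1, 1], ![-1, 2], ![2, -1], ![1, -2], ![-2, 1], ![-1, -1]] : Fin 6 → Fin 2 → ℤ)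
    (by decide) 0 (by decide) (![![1, 0, 4, 5, 2, 3], ![2, 3, 0, 1, 5, 4]] : Fin 2 → Fin 6 → Fin 6) (by decide)
    (fun y => (y : ℕ)) (by decide)
  have h3 : {i | (![1, 1] : Fin 2 → ℤ) i = 0} = (∅ : Set (Fin 2)) := by
    ext i
    fin_cases i <;> simp
  rw [h3] at h1
  have h4 : WJ cs ∅ = ⊥ := by
    unfold WJ
    rw [Set.image_empty, Subgroup.closure_empty]
  rw [h4, Subgroup.index_bot] at h1
  rw [h1, Nat.card_eq_fintype_card, Fintype.card_fin]

/-! ### The conclusion -/

section main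

variable {G : Type u} [Group G] [Fintype G] {M : Ideal AlgInt} {k : ℕ}
variable (N : Subgroup G) [hNn : N.Normal] [Fintype N] (J : Subgroup G) [hJn : J.Normal]
  {P : Cfsg.BNPair N}
variable [hN : ((P.B ⊓ P.N).subgroupOf P.N).Normal]
variable (e : Fin 2 ≃ P.S) (cs : CoxeterSystem (cA 2) (WP P))
  (hcs : ∀ i, cs.simple i = QuotientGroup.mk (⟨(e i : N), P.subset (e i).2⟩ : P.N))

include hcs in
/-- **Type `A₂`, `q ≡ 1` modulo four.** -/
theorem concl_A2 (hM : IsPModular 2 M) (hNJ : N ≤ J) (hodd : Odd (N.relIndex J))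
    (hidx : ∃ j : ℕ, J.index = 2 ^ j) (hk : IsK G k) {p : ℕ} [Fact p.Prime] (hp : Odd p) {U : Subgroup N}
    (S : Split P p U) (hB0 : InB0 (cls P.B)) {F : Type*} [Field F] [Fintype F] [CharP F p]
    (h4 : Fintype.card F % 4 = 1) (hq : ∀ i, q P (e i : N) = Fintype.card F) (hpN : p ∣ Nat.card N) :
    Concl M G N k := by
  classical
  have hSt : Stab N P := stab_of_split S
  set s : N := (e 0 : N) with hs_def
  set t : N := (e 1 : N) with ht_def
  have hs : s ∈ P.S := (e 0).2
  have ht : t ∈ P.S := (e 1).2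
  have hS : P.S = {s, t} := by
    ext x
    constructor
    · intro hx
      obtain ⟨i, hi⟩ := e.surjective ⟨x, hx⟩
      have hi' : (e i : N) = x := congrArg Subtype.val hi
      fin_cases i
      · exact Or.inl hi'.symm
      · exact Or.inr hi'.symm
    · rintro (rfl | rfl)
      · exact hs
      · exact ht
  have hst : s ≠ t := by
    intro h
    have h1 : e 0 = e 1 := Subtype.ext h
    exact absurd (e.injective h1) (by decide)
  have hW : ((P.B ⊓ P.N).subgroupOf P.N).index = 2 * 3 := card_A2 cs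
  obtain ⟨hbr0, htr⟩ := TC_data (P := P) hS hst hW
  have hA := TC_sq (P := P) hs
  have hB := TC_sq (P := P) ht
  rw [hq 0] at hA
  rw [hq 1] at hB
  set A : Matrix (Ch N P) (Ch N P) ℝ := TC s with hA_def
  set B : Matrix (Ch N P) (Ch N P) ℝ := TC t with hB_def
  set Q : ℕ := Fintype.card F with hQ_def
  set r : ℝ := Real.sqrt Q with hr_def
  have hQ2 : 2 ≤ Q := by rw [← hq 0]; exact two_le_q hs
  have hQ0 : (0 : ℝ) < Q := by exact_mod_cast (by omega : 0 < Q)
  have hr : r ^ 2 = (Q : ℝ) := Real.sq_sqrt hQ0.le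
  have hr0 : 0 < r := Real.sqrt_pos.2 hQ0
  have halt : ∀ x y : Matrix (Ch N P) (Ch N P) ℝ, alt 3 x y = x * (y * x) := by
    intro x y
    rw [Cfsg.Agent.LieRecognition.FeitHigmanGroup.alt_succ, Cfsg.Agent.LieRecognition.FeitHigmanGroup.alt_succ,
      Cfsg.Agent.LieRecognition.FeitHigmanGroup.alt_one]
  have halt2 : ∀ x y : Matrix (Ch N P) (Ch N P) ℝ, alt 2 x y = x * y := by
    intro x y
    rw [Cfsg.Agent.LieRecognition.FeitHigmanGroup.alt_succ, Cfsg.Agent.LieRecognition.FeitHigmanGroup.alt_one]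
  have hbr : A * (B * A) = B * (A * B) := by
    rw [← halt, ← halt]
    exact hbr0
  have hAt : A.trace = 0 := by
    have h1 := (htr 1 (by norm_num) (by norm_num)).1
    rwa [Cfsg.Agent.LieRecognition.FeitHigmanGroup.alt_one] at h1
  have hBt : B.trace = 0 := by
    have h1 := (htr 1 (by norm_num) (by norm_num)).2
    rwa [Cfsg.Agent.LieRecognition.FeitHigmanGroup.alt_one] at h1
  have hABt : (A * B).trace = 0 := by
    rw [← halt2]
    exact (htr 2 (by norm_num) (by norm_num)).1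
  have hABAt : (A * (B * A)).trace = 0 := by
    rw [← halt]
    exact (htr 3 (by norm_num) (by norm_num)).1
  have hcard : (1 : Matrix (Ch N P) (Ch N P) ℝ).trace = (P.B.index : ℝ) := by
    rw [Matrix.trace_one]
    have h1 : Fintype.card (Ch N P) = P.B.index := by
      rw [← Nat.card_eq_fintype_card]
      rfl
    rw [h1]
  have hc : 2 * r * ((Q : ℝ) ^ 2 + Q + 1) ≠ 0 := by positivity
  have htrace := Tri.trace_te hA hB hbr hAt hBt hABt hABAt hcard hc
  have hEE := Tri.te_sq hA hB hbr hr hc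
  have hB1 := Tri.B_te hA hB hbr hr
  have hB2 := Tri.BA_te hA hB hbr hr
  have hE3 := Tri.te_A_te hA hB hbr hr hc hr0.ne'
  set E : Matrix (Ch N P) (Ch N P) ℝ := Tri.te A B (Q : ℝ) r with hE_def
  obtain ⟨d, hd⟩ := trace_idem E hEE
  have hkey : d * (Q ^ 2 + Q + 1) = Q * P.B.index := by
    rw [hd] at htrace
    exact_mod_cast htrace
  have hidx0 : 0 < P.B.index := Nat.pos_of_ne_zero Subgroup.index_ne_zero_of_finite
  have hd0 : d ≠ 0 := by
    rintro rfl
    rw [zero_mul] at hkey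
    have : 0 < Q * P.B.index := by positivity
    omega
  have hde : Even d := by
    have h5 : P.B.index % 2 = 0 := by
      have h6 := index_mod e cs hcs hp S ∅
      have h7 : PJ P e ∅ = P.B := by
        unfold PJ
        rw [Set.image_empty]
        exact parabolic_empty P
      have h8 : WJ cs ∅ = ⊥ := by
        unfold WJ
        rw [Set.image_empty, Subgroup.closure_empty]
      rw [h7, h8, Subgroup.index_bot, card_A2 cs] at h6
      omega
    have h6 : Even (d * (Q ^ 2 + Q + 1)) := by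
      rw [hkey]
      exact (Nat.even_iff.2 h5).mul_left _
    have h7 : ¬ Even (Q ^ 2 + Q + 1) := by
      rw [Nat.not_even_iff_odd]
      have h8 : Even (Q ^ 2 + Q) := by
        rw [show Q ^ 2 + Q = Q * (Q + 1) by ring]
        exact Nat.even_mul_succ_self Q
      exact h8.add_one
    exact (Nat.even_mul.1 h6).resolve_right h7
  letI := chAct hSt
  -- the invariance
  have hinvX : Inv G (A + B : Matrix (Ch N P) (Ch N P) ℝ) := by
    intro g x y
    obtain ⟨t', ht'⟩ := exists_conj_keep S (MulAut.conjNormal g : MulAut N)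
    have h1 := fun i => T_smul e cs hcs hSt g ht' i x y
    have hinj : Function.Injective (sg e cs hcs ht') := by
      intro i j hij
      apply Cox.inj (cs := cs)
      apply fW_injective _ ht'
      rw [fW_simple' e cs hcs ht' i, fW_simple' e cs hcs ht' j, hij]
    rw [Matrix.add_apply, Matrix.add_apply]
    have h2 : ∀ i j : Fin 2, i ≠ j → (i = 0 ∧ j = 1) ∨ (i = 1 ∧ j = 0) := by decide
    rcases h2 (sg e cs hcs ht' 0) (sg e cs hcs ht' 1) (fun h => absurd (hinj h) (by decide)) with ⟨h3, h4⟩ | ⟨h3, h4⟩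
    · have h5 := h1 0
      have h6 := h1 1
      rw [h3] at h5
      rw [h4] at h6
      exact congrArg₂ (· + ·) h5 h6
    · have h5 := h1 0
      have h6 := h1 1
      rw [h3] at h5
      rw [h4] at h6
      rw [add_comm]
      exact congrArg₂ (· + ·) h5 h6
  have hinv : Inv G E := by
    have h1 : Inv G (Tri.xx A B (Q : ℝ)) := by
      rw [Tri.xx_def]
      exact Inv.sub hinvX (Inv.smul _ Inv.one)
    rw [hE_def, Tri.te_def, Tri.t0]
    exact Inv.smul _ (Inv.mul (Inv.sub (Inv.smul _ Inv.one) (h1.mul h1)) (h1.add (Inv.smul _ Inv.one)))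
  have hmul : ∀ A B : Matrix (Ch N P) (Ch N P) ℝ, (A * B).map Complex.ofReal =
      A.map Complex.ofReal * B.map Complex.ofReal := fun A B => Matrix.map_mul (f := Complex.ofRealHom)
  have hinv' : Inv G (E.map Complex.ofReal) := hinv.map Complex.ofReal
  have he' : E.map Complex.ofReal * E.map Complex.ofReal = E.map Complex.ofReal := by rw [← hmul, hEE]
  have hact : ∀ (n : N) (x : Ch N P), n • x = std n x := by
    intro n x
    obtain ⟨a, rfl⟩ := QuotientGroup.mk_surjective (s := P.B) x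
    exact coe_smul hSt n a
  have hprim : ∀ M : Matrix (Ch N P) (Ch N P) ℂ, Inv N M →
      ∃ c : ℂ, E.map Complex.ofReal * M * E.map Complex.ofReal = c • E.map Complex.ofReal := by
    intro Mx hMx
    letI := fq P
    letI := dq P
    refine prim_of' (P := P) hS (e := E) hEE (c₀ := r + Q - 1) (c₁ := -1) (c₂ := ((Q : ℝ) - 1) * r) (c₃ := -r)
      ?_ ?_ hE3 Mx ?_
    · rw [neg_one_smul, ← sub_eq_add_neg]
      exact hB1
    · rw [neg_smul, ← sub_eq_add_neg]
      exact hB2
    · intro n x y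
      have h4 : Mx (n • (show Ch N P from x)) (n • (show Ch N P from y)) = Mx x y := hMx n x y
      have h5 := hact n x
      have h6 := hact n y
      exact (congrArg₂ Mx h5.symm h6.symm).trans h4
  have htr' : (E.map Complex.ofReal).trace = (d : ℂ) := by
    have h5 : (E.map Complex.ofReal).trace = ((E.trace : ℝ) : ℂ) := by
      rw [Matrix.trace, Matrix.trace, Complex.ofReal_sum]
      rfl
    rw [h5, hd]
    simp
  -- the Galois automorphisms
  have hpG : p ∣ Nat.card G := hpN.trans (Subgroup.card_subgroup_dvd_card N)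
  have hpk : p ∣ k + 1 := by
    obtain ⟨g, hg⟩ := exists_prime_orderOf_dvd_card' p hpG
    have h5 := hk.odd g (by rw [hg]; exact hp)
    rw [← hg, orderOf_dvd_iff_pow_eq_one, pow_succ, h5, inv_mul_cancel]
  refine concl_of_idem hM N J hNJ hodd hidx hk hinv' he' hprim htr' hde hd0
    (ic_pow (ic_isCharacter hinv' he') hk.coprime fun σ hσ => ?_) ?_
  · have h5 : σ ((r : ℝ) : ℂ) = r := sqrt_fix h4 hpG hpk σ hσ
    have h6 : IsFix σ E := isFix_te (isRat_TC s).isFix (isRat_TC t).isFix (by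
      rw [Complex.ofReal_natCast]
      exact map_natCast σ _) h5
    intro x y
    rw [Matrix.map_apply]
    exact h6 x y
  intro φ hφ
  refine hB0 M hM φ ?_
  have hirr : IsIrrCharacter N (ic N (E.map Complex.ofReal)) := by
    rw [← hφ]
    exact φ.2
  have h6 := mu_ic_ne_zero (G := N) (X := Ch N P) (Inv.sub' hinv' N) he' hirr
  rw [hφ]
  have h7 : permS (cls P.B) = fun g : N => (Nat.card {x : Ch N P // g • x = x} : ℂ) := by
    funext g
    rw [permS_cls normalizer_B]
    congr 1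
    refine Nat.card_congr (Equiv.subtypeEquivRight fun x => ?_)
    have h8 := hact g x
    exact ⟨fun h => h8.trans h, fun h => h8.symm.trans h⟩
  rw [h7]
  exact h6

end main

end Cfsg.Agent.H610.EB

namespace Cfsg.Agent.H610.EB

open Cfsg Cfsg.Agent.H694 Cfsg.Agent.H694.EB Cfsg.Agent.H684.EB
open Cfsg.Agent.Characters.Core
open Cfsg.Agent.LieRecognition.BNCox (cA)
open Cfsg.Agent.LieRecognition.FeitHigmanGroup (q)
open Cfsg.Agent.Nodes Cfsg.Agent.Nodes.BNOf Cfsg.Agent.Nodes.Reps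
open Cfsg.Agent.Nodes.RGDTypeA (pr)
open Cfsg.Agent.ChevalleyStructure.CoxeterGeom Cfsg.Agent.Tits.Roots
open Cfsg.Agent.H24.EB

universe u v

/-! ### The parameters -/

section param

variable {I W Y : Type*} [Fintype I] [DecidableEq I] [Group W] [Group Y] {M : CoxeterMatrix I}
  {cs : CoxeterSystem M W} {A : I → I → ℤ} {h : IsCartan M A} {p : ℕ} {T : Subgroup Y} {n : I → Y}
  {X : (I → ℤ) → Subgroup Y}

/-- `|U| = |X_i| |V_i|` -/
theorem card_UV [Finite W] (R : RGD cs h p T n X) (i : I) : Nat.card (RGD.Sup X (RGD.Pos cs h)) =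
    Nat.card (X (sr i)) * Nat.card (RGD.Sup X (RGD.PosNe cs h i)) := by
  refine CardSup.card_mul_of_disjoint (RGD.le_Sup (S := RGD.Pos cs h) ⟨isRoot_sr cs h i, sr_nonneg i⟩)
    (KFacts.RgdFixU.V_le_U R i) (fun g hg => KFacts.RgdFixU.exists_mul_V R i hg) ?_
  rw [Subgroup.eq_bot_iff_forall]
  rintro x ⟨h1, h2⟩
  exact OppDec.eq_one_of_mem_PosNe R h1 h2

/-- The parameters are the orders of the simple root groups. -/
theorem q_rgd [Finite W] [Finite Y] (hp : p.Prime) (R : RGD cs h p T n X)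
    (hgen : RGD.B cs h T X ⊔ NN cs R.nsys = ⊤) (hcore : (RGD.B cs h T X).normalCore = ⊥) (i : I) :
    q (R.bnPair hgen) (n i) = Nat.card (X (sr i)) := by
  have h1 := Cfsg.Agent.H740.Eight.HeckeDeg.q_eq (FixBN.SplitRGD.split_of_rgd hp R hgen hcore)
    (s := n i) ⟨i, rfl⟩ (FixBN.NodeRGD.node R hgen i)
  rw [h1]
  have h2 : RGD.Sup X (RGD.PosNe cs h i) ≤ RGD.Sup X (RGD.Pos cs h) := KFacts.RgdFixU.V_le_U R i
  have h3 := Subgroup.card_mul_index ((RGD.Sup X (RGD.PosNe cs h i)).subgroupOf (RGD.Sup X (RGD.Pos cs h)))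
  rw [Nat.card_congr (Subgroup.subgroupOfEquivOfLe h2).toEquiv, card_UV R i, mul_comm] at h3
  exact Nat.eq_of_mul_eq_mul_right Nat.card_pos h3

end param

/-! ### Groups with root group data of type `A₂` -/

/-- `Y` has a root group datum of type `A₂` with root groups of order `Q`, and the elements of odd order which
commute with the involutions of the torus lie in the torus. -/
def HasTri (p Q : ℕ) (Y : Type u) [Group Y] : Prop :=
  ∃ (T : Subgroup Y) (n : Fin 2 → Y) (X : (Fin 2 → ℤ) → Subgroup Y),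
    RGD (cA 2).toCoxeterSystem (RootsA.isCartan 2) p T n X ∧
    RGDLib.G1 (cA 2).toCoxeterSystem (RootsA.isCartan 2) X = ⊤ ∧ (∀ i, Nat.card (X (sr i)) = Q) ∧
    (∀ x ∈ T, ∀ y ∈ T, x * y = y * x) ∧
    ∀ g : Y, Odd (orderOf g) → (∀ t ∈ T, t * t = 1 → t * g = g * t) → g ∈ T

theorem HasTri.of_equiv {p Q : ℕ} {Y : Type u} {Y' : Type v} [Group Y] [Group Y'] (e : Y ≃* Y') (hY : HasTri p Q Y) :
    HasTri p Q Y' := by
  obtain ⟨T, n, X, R, hX, hc, hT, hg⟩ := hY
  refine ⟨T.map e.toMonoidHom, fun i => e (n i), fun x => (X x).map e.toMonoidHom,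
    RGDLib.rgd_map_of_injective R e.toMonoidHom e.injective, ?_, ?_, ?_, ?_⟩
  · have h1 : (RGDLib.G1 (cA 2).toCoxeterSystem (RootsA.isCartan 2) X).map e.toMonoidHom =
        RGDLib.G1 (cA 2).toCoxeterSystem (RootsA.isCartan 2) (fun x => (X x).map e.toMonoidHom) := by
      unfold RGDLib.G1 RGD.Sup
      rw [Subgroup.map_iSup]
    rw [← h1, hX, Subgroup.map_top_of_surjective _ e.surjective]
  · intro i
    rw [← hc i]
    exact Nat.card_congr ((X (sr i)).equivMapOfInjective e.toMonoidHom e.injective).symm.toEquiv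
  · rintro _ ⟨s, hs, rfl⟩ _ ⟨t, ht, rfl⟩
    show e s * e t = e t * e s
    rw [← map_mul, hT s hs t ht, map_mul]
  · intro g ho hcom
    refine ⟨e.symm g, hg _ ?_ ?_, e.apply_symm_apply g⟩
    · rwa [MulEquiv.orderOf_eq]
    · intro t ht ht2
      have h1 := hcom (e t) ⟨t, ht, rfl⟩ (by rw [← map_mul, ht2, map_one])
      apply e.injective
      rw [map_mul, map_mul, e.apply_symm_apply]
      exact h1

/-- The data of the group. -/
theorem HasTri.data {p Q : ℕ} {Y : Type u} [Group Y] [Finite Y] [IsSimpleGroup Y] (hp : p.Prime) (hY : HasTri p Q Y) :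
    ∃ (P : Cfsg.BNPair Y) (U : Subgroup Y) (e : Fin 2 ≃ P.S), FixBN.Split P p U ∧ Cfsg.Agent.Tits.Core.BNType P (cA 2) e ∧
      (∀ [Fintype Y], InB0 (cls P.B)) ∧ (∀ i, q P (e i : Y) = Q) ∧ Q ∣ Nat.card Y := by
  obtain ⟨T, n, X, R, hX, hc, hT, hg⟩ := hY
  have hW : Finite (cA 2).Group := RootsA.finite_W (cA 2).toCoxeterSystem (RootsA.isCartan 2)
  have hgen : RGD.B (cA 2).toCoxeterSystem (RootsA.isCartan 2) T X ⊔ NN (cA 2).toCoxeterSystem R.nsys = ⊤ := by
    rw [eq_top_iff, ← hX]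
    exact RGDLib.rgd_G1_le R
  have hne : (R.bnPair hgen).S.Nonempty := ⟨n 0, 0, rfl⟩
  have hcore := Cfsg.Agent.Tits.OfBN.normalCore_eq_bot (R.bnPair hgen) hne
  have hS := FixBN.SplitRGD.split_of_rgd hp R hgen hcore
  refine ⟨R.bnPair hgen, _, _, hS, Cfsg.Agent.Omega.ML.Ex.Typ.bnType R hgen, ?_, ?_, ?_⟩
  · intro _
    have h1 := inB0_of_torus (P := R.bnPair hgen) (Equiv.ofInjective n R.n_injective) ∅ (sqOne T hT)
      (isPGroup_sqOne T hT) (by
        intro x hx
        have h3 := (mem_sqOne.1 hx).1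
        rw [← R.B_inf_NN] at h3
        exact h3) (by
        intro g hg2 hq
        refine RGD.T_le_B (hg g ?_ fun t ht ht2 => hq t (mem_sqOne.2 ⟨ht, ht2⟩))
        unfold IsPRegular at hg2
        rwa [Nat.two_dvd_ne_zero, ← Nat.odd_iff] at hg2)
    have h7 : PJ (R.bnPair hgen) (Equiv.ofInjective n R.n_injective) ∅ = (R.bnPair hgen).B := by
      unfold PJ
      rw [Set.image_empty]
      exact Cfsg.Agent.Schreier.BNSch.parabolic_empty _
    rwa [h7] at h1
  · intro i
    have h1 := q_rgd hp R hgen hcore i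
    rw [hc i] at h1
    exact h1
  · rw [← hc 0]
    exact Subgroup.card_subgroup_dvd_card _

/-- `PSL₃(F)` -/
theorem hasTri_psl {F : Type u} [Field F] [Finite F] {p : ℕ} [Fact p.Prime] [CharP F p] (hp : p ≠ 2) :
    HasTri p (Nat.card F) (Matrix.ProjectiveSpecialLinearGroup (Fin 3) F) := by
  have hpp : p.Prime := Fact.out
  have h2 : (2 : F) ≠ 0 := by
    intro h
    have h3 : ((2 : ℕ) : F) = 0 := by exact_mod_cast h
    rw [CharP.cast_eq_zero_iff F p] at h3
    exact hp ((Nat.prime_dvd_prime_iff_eq hpp Nat.prime_two).1 h3)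
  have hcm : ∀ x ∈ (RGDTypeA.T (Fin 3) F).map (pr 2 F), ∀ y ∈ (RGDTypeA.T (Fin 3) F).map (pr 2 F), x * y = y * x := by
    rintro _ ⟨x, hx, rfl⟩ _ ⟨y, hy, rfl⟩
    rw [← map_mul, ← map_mul, comm_T hx hy]
  have hW : Finite (cA 2).Group := RootsA.finite_W (cA 2).toCoxeterSystem (RootsA.isCartan 2)
  refine ⟨_, _, _, RGDTypeA.rgd_psl (F := F) (p := p) (n := 2) (cA 2).toCoxeterSystem (RootsA.isCartan 2),
    RGDTypeA.G1_psl_eq_top (F := F) (cA 2).toCoxeterSystem (RootsA.isCartan 2), ?_, hcm, ?_⟩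
  · intro i
    refine (CardSup.card_map_X (RGDTypeA.rgd (F := F) (p := p) (cA 2).toCoxeterSystem (RootsA.isCartan 2)) (pr 2 F)
      RGDTypeA.ker_pr.le (isRoot_sr (cA 2).toCoxeterSystem (RootsA.isCartan 2) i)).trans ?_
    rw [RGDTypeA.X_sr]
    have hne : i.castSucc ≠ i.succ := (Fin.castSucc_lt_succ).ne
    refine (Nat.card_congr (Equiv.ofBijective (fun t : F => (⟨_, RGDTypeA.tv_mem_XX i.castSucc i.succ t⟩ :
      RGDTypeA.XX F i.castSucc i.succ)) ⟨?_, ?_⟩)).symm
    · intro s t hst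
      exact RGDTypeA.tv_inj hne (congrArg Subtype.val hst)
    · rintro ⟨g, t, rfl⟩
      exact ⟨t, rfl⟩
  · intro g ho hcom
    exact mem_of_comm (n := 2) le_rfl h2 rfl hcm g ho fun t ht => hcom t (mem_sqOne.1 ht).1 (mem_sqOne.1 ht).2

/-- **`PSL₃(q)`, `q ≡ 1` modulo four.** -/
theorem evenJ_psl3_one {S : Type u} [Group S] [Finite S] [IsSimpleGroup S] {F : Type} [Field F] [Fintype F]
    (h4 : Fintype.card F % 4 = 1) (e : S ≃* Matrix.ProjectiveSpecialLinearGroup (Fin 3) F) : EvenJ S := by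
  classical
  intro G _ _ N _ _ ⟨f⟩ _ J _ hNJ ho hi k hk M hM
  obtain ⟨p, hpc⟩ := CharP.exists F
  have hp : p.Prime := CharP.char_is_prime F p
  have : Fact p.Prime := ⟨hp⟩
  obtain ⟨m, -, hm⟩ := FiniteField.card F p
  have hp2 : p ≠ 2 := by
    rintro rfl
    have : 2 ∣ Fintype.card F := by
      rw [hm]
      exact dvd_pow_self 2 m.ne_zero
    omega
  have : Nontrivial N := f.symm.toEquiv.nontrivial
  have : IsSimpleGroup N := IsSimpleGroup.isSimpleGroup_of_surjective f.toMonoidHom f.surjective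
  have h1 : HasTri p (Nat.card F) N := (hasTri_psl hp2).of_equiv (e.symm.trans f)
  obtain ⟨P, U, i, hsp, ⟨hN, cs, hcs⟩, hB0, hq, hdvd⟩ := h1.data hp
  refine concl_A2 N J i cs hcs hM hNJ ho hi hk (hp.odd_of_ne_two hp2) hsp hB0 h4 (fun j => ?_) ?_
  · rw [hq j, Nat.card_eq_fintype_card]
  · refine dvd_trans ?_ hdvd
    rw [Nat.card_eq_fintype_card, hm]
    exact dvd_pow_self p m.ne_zero

end Cfsg.Agent.H610.EB
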