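import Cfsg.Agent.H610.EB.RPhi
import Cfsg.Agent.H694.EB.TwoGrp
import Cfsg.Agent.H618.ParInd
import Cfsg.Agent.H619.R4.Parity
import Cfsg.Agent.H453.OddM.Real
import Cfsg.Agent.PermChar.SymAlt
import Cfsg.Agent.Blocks.Deflate
import Cfsg.Agent.S0165
import Cfsg.Agent.H669.Basic

/-!
# The norm of a character on a Sylow subgroup in characteristic two

* `inner_mod_two`: for a real generalized character `f` of `B` and a normal subgroup `V` of odd index,
  `[f, 1]_V ≡ [f, 1]_B` modulo 2.
* `even_sq_inner`: if `St` vanishes on the elements of even order, `[φ ^ 2, St]` is even.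
* `odd_norm`: if the permutation character on the cosets of `B` is `1 + 2 φ + m St` with `m` odd, the norm of
  `φ` on the normal subgroup `U` of odd index of `B` is odd.
-/

set_option autoImplicit false
set_option linter.unusedSectionVars false
set_option linter.style.haveILetI false

namespace Cfsg.Agent.H610.EB

open Cfsg Cfsg.Agent.Characters Cfsg.Agent.H694 Cfsg.Agent.H694.EB
open scoped ComplexConjugate
open Cfsg.Agent.Characters.Core
open Cfsg.Agent.Blocks.Basic
open Cfsg.Agent.H619.R4 (cbar cbar_apply cbar_cbar cbar_eq_iff classInner_cbar classInner_int)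

universe u

section one

variable {B : Type u} [Group B] [Fintype B]

/-- A real irreducible character with a nonzero sum over a normal subgroup of odd index is principal. -/
theorem real_eq_one (V : Subgroup B) [V.Normal] [Fintype V] (hV : Odd V.index) {χ : B → ℂ}
    (hχ : IsIrrCharacter B χ) (hreal : ∀ g, (χ g).im = 0) (hsum : ∑ v : V, χ v ≠ 0) : χ = fun _ => 1 := by
  classical
  haveI : Fintype (B ⧸ V) := Fintype.ofFinite _
  obtain ⟨ψ, hψ⟩ := Cfsg.Agent.Blocks.Deflate.exists_deflation V χ hχ hsum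
  have hodd : Odd (Nat.card (B ⧸ V)) := hV
  have hr : ∀ x : B ⧸ V, conj ((ψ : B ⧸ V → ℂ) x) = (ψ : B ⧸ V → ℂ) x := by
    intro x
    obtain ⟨g, rfl⟩ := QuotientGroup.mk_surjective x
    have h1 : χ g = (ψ : B ⧸ V → ℂ) (QuotientGroup.mk g) := congrFun hψ g
    rw [← h1]
    exact Complex.conj_eq_iff_im.2 (hreal g)
  have h1 : (ψ : B ⧸ V → ℂ) 1 = (charDegree (ψ : B ⧸ V → ℂ) : ℂ) := irr_one_eq_charDegree ψ.2
  obtain ⟨m, hm⟩ := classInner_isNat (isIrr_isCharacter ψ.2) (isIrr_isCharacter (isIrrCharacter_one (G := B ⧸ V)))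
  have hm' : classInner (ψ : B ⧸ V → ℂ) 1 = m := hm
  have h2 := Cfsg.Agent.H618.ParInd.parity_of_real hodd (isIrr_isCharacter ψ.2) hr h1 hm'
  have h3 : Odd (charDegree (ψ : B ⧸ V → ℂ)) :=
    Odd.of_dvd_nat hodd (Cfsg.Agent.H669.Basic.charDegree_dvd_card ψ.2)
  have h4 : m ≠ 0 := by
    rintro rfl
    rw [Nat.odd_iff] at h3
    omega
  have h5 : (ψ : B ⧸ V → ℂ) = fun _ => (1 : ℂ) := by
    by_contra hne
    have h6 : classInner (ψ : B ⧸ V → ℂ) (fun _ => (1 : ℂ)) = 0 :=
      classInner_irr_ne ψ.2 isIrrCharacter_one hne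
    have h7 : (m : ℂ) = 0 := hm.symm.trans h6
    exact h4 (by exact_mod_cast h7)
  rw [hψ, h5]
  rfl

/-- **Modulo two.** -/
theorem inner_mod_two (V : Subgroup B) [V.Normal] [Fintype V] (hV : Odd V.index) {f : B → ℂ}
    (hf : IsGeneralizedCharacter B f) (hreal : ∀ g, (f g).im = 0) :
    ∃ a c : ℤ, classInner (fun v : V => f v) (fun _ => (1 : ℂ)) = a ∧
      classInner f (fun _ => (1 : ℂ)) = c ∧ Even (a - c) := by
  classical
  have hfin := Core.finite_irr (G := B)
  haveI := Fintype.ofFinite (IrrCharacter B)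
  choose m hm using classInner_int hf
  have hr : ∀ χ : IrrCharacter B, ∃ r : ℕ,
      classInner (fun v : V => (χ : B → ℂ) v) (fun _ => (1 : ℂ)) = r := by
    intro χ
    exact classInner_isNat (isCharacter_comp V.subtype (isIrr_isCharacter χ.2))
      (isIrr_isCharacter isIrrCharacter_one)
  choose r hr using hr
  have hcf : IsClassFunction B f := Cfsg.Agent.H619.R4.isClassFunction_of_gen hf
  have h1 : classInner (fun v : V => f v) (fun _ => (1 : ℂ)) =
      ((∑ χ : IrrCharacter B, m χ * (r χ : ℤ) : ℤ) : ℂ) := by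
    have h2 : (fun v : V => f v) = ∑ χ : IrrCharacter B, (m χ : ℂ) • (fun v : V => (χ : B → ℂ) v) := by
      funext v
      conv_lhs => rw [classFunction_eq_sum hcf]
      rw [Finset.sum_apply, Finset.sum_apply]
      refine Finset.sum_congr rfl fun χ _ => ?_
      rw [Pi.smul_apply, Pi.smul_apply, hm]
    rw [h2, classInner_sum_left]
    push_cast
    refine Finset.sum_congr rfl fun χ _ => ?_
    rw [classInner_smul_left, hr]
  set χ₁ : IrrCharacter B := ⟨fun _ => (1 : ℂ), isIrrCharacter_one⟩ with hχ₁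
  have hc : classInner f (fun _ => (1 : ℂ)) = (m χ₁ : ℂ) := hm χ₁
  refine ⟨_, _, h1, hc, ?_⟩
  have hr1 : r χ₁ = 1 := by
    have h2 := hr χ₁
    have h3 : classInner (fun v : V => (χ₁ : B → ℂ) v) (fun _ => (1 : ℂ)) = 1 :=
      classInner_irr_self (isIrrCharacter_one (G := V))
    rw [h3] at h2
    exact_mod_cast h2.symm
  have hmc : ∀ χ, m (cbar χ) = m χ := by
    intro χ
    have h4 := classInner_cbar hreal χ
    rw [hm, hm, map_intCast] at h4
    exact_mod_cast h4
  have hrc : ∀ χ, r (cbar χ) = r χ := by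
    intro χ
    have h4 : classInner (fun v : V => (cbar χ : B → ℂ) v) (fun _ => (1 : ℂ)) =
        conj (classInner (fun v : V => (χ : B → ℂ) v) (fun _ => (1 : ℂ))) := by
      rw [Core.classInner_def, Core.classInner_def, map_mul, map_inv₀, Complex.conj_natCast, map_sum]
      congr 1
      refine Finset.sum_congr rfl fun v _ => ?_
      rw [cbar_apply, map_mul, map_one, map_one]
    rw [hr, hr, Complex.conj_natCast] at h4
    exact_mod_cast h4
  have h3 : ((∑ χ : IrrCharacter B, m χ * (r χ : ℤ) : ℤ) : ZMod 2) = ((m χ₁ : ℤ) : ZMod 2) := by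
    rw [Int.cast_sum, Cfsg.Agent.H611.EvenFixed.sum_eq_sum_fixed Finset.univ cbar (fun χ _ => cbar_cbar χ)
      (fun χ _ => Finset.mem_univ _) _ (fun χ _ => by rw [hmc, hrc])]
    rw [Finset.sum_eq_single χ₁]
    · rw [hr1]
      simp
    · intro χ hχ hne
      rw [Finset.mem_filter] at hχ
      have h4 : r χ = 0 := by
        by_contra h5
        apply hne
        apply Subtype.ext
        refine real_eq_one V hV χ.2 ((cbar_eq_iff χ).1 hχ.2) ?_
        intro h6
        have h7 := hr χ
        rw [Core.classInner_def] at h7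
        have h8 : ∑ v : V, (χ : B → ℂ) v * conj (1 : ℂ) = 0 := by
          rw [← h6]
          exact Finset.sum_congr rfl fun v _ => by rw [map_one, mul_one]
        rw [h8, mul_zero] at h7
        exact h5 (by exact_mod_cast h7.symm)
      rw [h4]
      simp
    · intro h4
      exfalso
      apply h4
      rw [Finset.mem_filter]
      refine ⟨Finset.mem_univ _, (cbar_eq_iff χ₁).2 fun g => ?_⟩
      show ((1 : ℂ)).im = 0
      simp
  have h4 : (((∑ χ : IrrCharacter B, m χ * (r χ : ℤ)) - m χ₁ : ℤ) : ZMod 2) = 0 := by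
    rw [Int.cast_sub, h3, sub_self]
  rw [even_iff_two_dvd]
  exact (ZMod.intCast_zmod_eq_zero_iff_dvd _ 2).1 h4

end one

section two

variable {K : Type u} [Group K] [Fintype K]

/-- **Modulo two, for permutation characters.** -/
theorem psi_mod_two (U B : Subgroup K) [Fintype U] (hUB : U ≤ B) (hnorm : ∀ b ∈ B, ∀ u ∈ U, b * u * b⁻¹ ∈ U)
    (hodd : Odd (U.relIndex B)) {f : K → ℂ} (hf : IsGeneralizedCharacter K f) (hreal : ∀ g, (f g).im = 0) :
    ∃ a c : ℤ, classInner (fun v : U => f v) (fun _ => (1 : ℂ)) = a ∧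
      classInner f (psi B) = c ∧ Even (a - c) := by
  classical
  haveI : Fintype B := Fintype.ofFinite _
  haveI : Fintype (U.subgroupOf B) := Fintype.ofFinite _
  haveI : (U.subgroupOf B).Normal := by
    constructor
    intro u hu b
    rw [Subgroup.mem_subgroupOf] at hu ⊢
    exact hnorm b b.2 u hu
  have hfB : IsGeneralizedCharacter B (fun b : B => f b) := by
    obtain ⟨x, y, hx, hy, rfl⟩ := hf
    exact ⟨_, _, isCharacter_comp B.subtype hx, isCharacter_comp B.subtype hy, rfl⟩
  obtain ⟨a, c, ha, hc, hac⟩ := inner_mod_two (U.subgroupOf B) hodd hfB (fun b => hreal b)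
  refine ⟨a, c, ?_, ?_, hac⟩
  · rw [← ha, ← classInner_equiv (Subgroup.subgroupOfEquivOfLe hUB).toEquiv]
    rfl
  · have h1 := psi_inner B (Cfsg.Agent.H619.R4.isClassFunction_of_gen hf)
    have h2 : classInner f (psi B) = conj (classInner (psi B) f) := by
      rw [classInner_conj_symm]
    rw [h2, h1, classInner_conj_symm]
    exact hc

/-- **The square of a character and a character vanishing on the elements of even order.** -/
theorem even_sq_inner {φ St : K → ℂ} (hφ : IsCharacter K φ) (hSt : IsCharacter K St)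
    (h0 : ∀ g, Even (orderOf g) → St g = 0) (hsq : ∀ g, Odd (orderOf g) → St (g * g) = St g)
    (horth : classInner φ St = 0) : ∃ c : ℤ, classInner (fun g => φ g ^ 2) St = c ∧ Even c := by
  classical
  obtain ⟨k, hk⟩ := classInner_isNat (Cfsg.Agent.PermChar.SymAlt.isCharacter_altSq hφ) hSt
  -- the part of the elements of odd order
  have h1 : classInner (fun g => φ (g * g)) St = classInner φ St := by
    rw [Core.classInner_def, Core.classInner_def]
    congr 1
    have h2 : ∀ F : K → ℂ, (∑ g : K, F g * conj (St g)) =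
        ∑ g ∈ Finset.univ.filter (fun g : K => Odd (orderOf g)), F g * conj (St g) := by
      intro F
      rw [Finset.sum_filter]
      refine Finset.sum_congr rfl fun g _ => ?_
      split_ifs with h
      · rfl
      · rw [h0 g (Nat.not_odd_iff_even.1 h), map_zero, mul_zero]
    rw [h2, h2]
    obtain ⟨v, m, hm, hvm⟩ := Nat.exists_eq_two_pow_mul_odd (Nat.card_pos (α := K)).ne'
    have hord : ∀ g : K, Odd (orderOf g) → orderOf g ∣ m := by
      intro g hg
      have h3 : orderOf g ∣ 2 ^ v * m := by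
        rw [← hvm]
        exact orderOf_dvd_natCard g
      exact (Nat.Coprime.pow_right v (Nat.coprime_two_right.2 hg)).dvd_of_dvd_mul_left h3
    obtain ⟨e, he⟩ : ∃ e, m + 1 = 2 * e := by
      obtain ⟨j, hj⟩ := hm
      exact ⟨j + 1, by omega⟩
    have hpow : ∀ g : K, Odd (orderOf g) → g ^ (2 * e) = g := by
      intro g hg
      rw [← he, pow_succ, orderOf_dvd_iff_pow_eq_one.1 (hord g hg), one_mul]
    have hoddp : ∀ (g : K) (j : ℕ), Odd (orderOf g) → Odd (orderOf (g ^ j)) := fun g j hg =>
      Odd.of_dvd_nat hg (orderOf_pow_dvd j)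
    refine Finset.sum_nbij' (fun g => g * g) (fun g => g ^ e) ?_ ?_ ?_ ?_ ?_
    · intro g hg
      rw [Finset.mem_filter] at hg ⊢
      refine ⟨Finset.mem_univ _, ?_⟩
      rw [← pow_two]
      exact hoddp g 2 hg.2
    · intro g hg
      rw [Finset.mem_filter] at hg ⊢
      exact ⟨Finset.mem_univ _, hoddp g e hg.2⟩
    · intro g hg
      rw [Finset.mem_filter] at hg
      show (g * g) ^ e = g
      rw [← pow_two, ← pow_mul]
      exact hpow g hg.2
    · intro g hg
      rw [Finset.mem_filter] at hg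
      show g ^ e * g ^ e = g
      rw [← pow_add, ← two_mul]
      exact hpow g hg.2
    · intro g hg
      rw [Finset.mem_filter] at hg
      rw [hsq g hg.2]
  refine ⟨2 * k, ?_, even_two_mul _⟩
  have h3 : (fun g => φ g ^ 2) = (2 : ℂ) • (fun g => (φ g ^ 2 - φ (g * g)) / 2) + fun g => φ (g * g) := by
    funext g
    simp only [Pi.add_apply, Pi.smul_apply, smul_eq_mul]
    ring
  rw [h3, classInner_add_left, classInner_smul_left, hk, h1, horth]
  push_cast
  ring

/-- **The norm on `U` is odd.** -/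
theorem odd_norm (U B : Subgroup K) [Fintype U] (hUB : U ≤ B) (hnorm : ∀ b ∈ B, ∀ u ∈ U, b * u * b⁻¹ ∈ U)
    (hodd : Odd (U.relIndex B)) {φ St : K → ℂ} (hφ : IsIrrCharacter K φ) (hSt : IsIrrCharacter K St)
    (hφr : ∀ g, (φ g).im = 0) (h0 : ∀ g, Even (orderOf g) → St g = 0)
    (hsq : ∀ g, Odd (orderOf g) → St (g * g) = St g) (hne : φ ≠ St) {m : ℤ}
    (hβ : psi B = (fun _ => (1 : ℂ)) + (2 : ℂ) • φ + (m : ℂ) • St) :
    ∃ a : ℤ, classInner (fun u : U => φ u) (fun u : U => φ u) = a ∧ Odd a := by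
  classical
  have hφc := isIrr_isCharacter hφ
  have hφ2 : IsCharacter K (fun g => φ g ^ 2) := by
    have h1 := isCharacter_mul hφc hφc
    have h2 : (fun g => φ g ^ 2) = fun g => φ g * φ g := by
      funext g
      rw [pow_two]
    rw [h2]
    exact h1
  have hconj : ∀ g, conj (φ g) = φ g := fun g => Complex.conj_eq_iff_im.2 (hφr g)
  obtain ⟨a, c, ha, hc, hac⟩ := psi_mod_two U B hUB hnorm hodd (f := fun g => φ g ^ 2)
    (Cfsg.Agent.Characters.Brauer.isGeneralizedCharacter_of_isCharacter hφ2) (fun g => by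
      rw [← Complex.conj_eq_iff_im, map_pow, hconj])
  have h1 : classInner φ St = 0 := classInner_irr_ne hφ hSt hne
  obtain ⟨y, hy, hye⟩ := even_sq_inner hφc (isIrr_isCharacter hSt) h0 hsq h1
  obtain ⟨x, hx⟩ := classInner_isNat hφ2 hφc
  have h2 : classInner (fun g => φ g ^ 2) (fun _ => (1 : ℂ)) = 1 := by
    refine Eq.trans ?_ (classInner_irr_self hφ)
    rw [Core.classInner_def, Core.classInner_def]
    congr 1
    refine Finset.sum_congr rfl fun g _ => ?_
    show φ g ^ 2 * conj (1 : ℂ) = φ g * conj (φ g)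
    rw [hconj, map_one, mul_one, pow_two]
  have h3 : (c : ℂ) = 1 + 2 * x + m * y := by
    rw [← hc, hβ, classInner_add_right, classInner_add_right, classInner_smul_right, classInner_smul_right,
      h2, hx, hy, map_ofNat, map_intCast]
  have h4 : c = 1 + 2 * x + m * y := by exact_mod_cast h3
  have h5 : classInner (fun u : U => φ u) (fun u : U => φ u) = a := by
    rw [← ha, Core.classInner_def, Core.classInner_def]
    congr 1
    refine Finset.sum_congr rfl fun g _ => ?_
    show φ g * conj (φ g) = φ g ^ 2 * conj (1 : ℂ)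
    rw [hconj, map_one, mul_one, pow_two]
  refine ⟨a, h5, ?_⟩
  have h6 : Odd c := by
    rw [h4]
    obtain ⟨z, hz⟩ := hye
    exact ⟨x + m * z, by rw [hz]; ring⟩
  have h7 : a = (a - c) + c := by ring
  rw [h7]
  exact hac.add_odd h6

end two

end Cfsg.Agent.H610.EB
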